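import Cfsg.Agent.H558.Deg4Data.QuotQ
import Cfsg.Agent.H574.Deg4.Comm

/-!
# A linear group over a finite field, over the algebraic closure
-/

namespace Cfsg.Agent.H558.Deg4Data

open Matrix Module

section rank

variable {K L : Type*} [Field K] [Field L] (f : K →+* L) {ι : Type*} [Fintype ι] [DecidableEq ι]

/-- The rank does not increase under field extension (rank at most two). -/
theorem rank_map_le_two (N : Matrix ι ι K) (hN : N.rank ≤ 2) : (N.map f).rank ≤ 2 := by
  obtain ⟨U, W, rfl⟩ := exists_mul_of_rank_le_two N hN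
  rw [Matrix.map_mul]
  refine (Matrix.rank_mul_le_left _ _).trans ?_
  simpa using Matrix.rank_le_card_width (U.map f)

theorem rank_le_of_ker {M N : Matrix ι ι K} (h : ∀ v, M *ᵥ v = 0 → N *ᵥ v = 0) : N.rank ≤ M.rank := by
  have h1 := LinearMap.finrank_range_add_finrank_ker M.mulVecLin
  have h2 := LinearMap.finrank_range_add_finrank_ker N.mulVecLin
  have h3 : finrank K (LinearMap.ker M.mulVecLin) ≤ finrank K (LinearMap.ker N.mulVecLin) :=
    Submodule.finrank_mono fun v hv => by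
      rw [LinearMap.mem_ker, Matrix.mulVecLin_apply] at hv ⊢
      exact h v hv
  unfold Matrix.rank
  omega

theorem no_neg_map {M : Matrix ι ι K} (h : ∀ v, M *ᵥ v = -v → v = 0) (v : ι → L) (hv : (M.map f) *ᵥ v = -v) : v = 0 := by
  have h1 : (M + 1).det ≠ 0 := by
    intro h0
    obtain ⟨u, hu0, hu⟩ := Matrix.exists_mulVec_eq_zero_iff.2 h0
    apply hu0
    apply h
    rw [Matrix.add_mulVec, Matrix.one_mulVec] at hu
    exact eq_neg_of_add_eq_zero_left hu
  have h2 : (M.map f + 1).det ≠ 0 := by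
    have h3 : M.map f + 1 = (M + 1).map f := by
      rw [Matrix.map_add _ (map_add f), Matrix.map_one _ (map_zero f) (map_one f)]
    rw [h3]
    have h4 := RingHom.map_det f (M + 1)
    change f (M + 1).det = ((M + 1).map f).det at h4
    rw [← h4]
    exact fun h5 => h1 (f.injective (by rw [h5, map_zero]))
  by_contra hv0
  apply h2
  rw [← Matrix.exists_mulVec_eq_zero_iff]
  refine ⟨v, hv0, ?_⟩
  rw [Matrix.add_mulVec, Matrix.one_mulVec, hv, neg_add_cancel]

end rank

section Bar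

variable {K ι G : Type*} [Field K] [Fintype ι] [DecidableEq ι] [Group G]

/-- The representation over the algebraic closure. -/
noncomputable def bar (ρ : G →* Matrix ι ι K) : G →* Module.End (AlgebraicClosure K) (ι → AlgebraicClosure K) :=
  (Matrix.toLinAlgEquiv' (R := AlgebraicClosure K) (n := ι)).toAlgHom.toRingHom.toMonoidHom.comp
    ((algebraMap K (AlgebraicClosure K)).mapMatrix.toMonoidHom.comp ρ)

theorem bar_apply (ρ : G →* Matrix ι ι K) (g : G) (v : ι → AlgebraicClosure K) :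
    bar ρ g v = ((ρ g).map (algebraMap K (AlgebraicClosure K))) *ᵥ v := rfl

theorem bar_eq (ρ : G →* Matrix ι ι K) (g : G) :
    bar ρ g = Matrix.toLin' ((ρ g).map (algebraMap K (AlgebraicClosure K))) := rfl

theorem bar_injective {ρ : G →* Matrix ι ι K} (hρ : Function.Injective ρ) : Function.Injective (bar ρ) := by
  intro g h hgh
  apply hρ
  apply map_injective (algebraMap K (AlgebraicClosure K))
  exact (Matrix.toLinAlgEquiv' (R := AlgebraicClosure K) (n := ι)).injective hgh

theorem bar_sub_one (ρ : G →* Matrix ι ι K) (g : G) :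
    bar ρ g - 1 = Matrix.toLin' ((ρ g - 1).map (algebraMap K (AlgebraicClosure K))) := by
  rw [Matrix.map_sub _ (map_sub _), Matrix.map_one _ (map_zero _) (map_one _), map_sub, Matrix.toLin'_one, bar_eq]
  rfl

theorem finrank_range_bar (ρ : G →* Matrix ι ι K) (g : G) :
    finrank (AlgebraicClosure K) (LinearMap.range (bar ρ g - 1))
      = ((ρ g - 1).map (algebraMap K (AlgebraicClosure K))).rank := by
  rw [bar_sub_one]; rfl

theorem det_bar (ρ : G →* Matrix ι ι K) (g : G) :
    LinearMap.det (bar ρ g) = algebraMap K (AlgebraicClosure K) (ρ g).det := by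
  rw [bar_eq, LinearMap.det_toLin']
  exact (RingHom.map_det _ _).symm

theorem trace_bar (ρ : G →* Matrix ι ι K) (g : G) :
    LinearMap.trace _ _ (bar ρ g) = algebraMap K (AlgebraicClosure K) (ρ g).trace := by
  rw [bar_eq, Matrix.trace_toLin'_eq]
  simp [Matrix.trace]

/-- The linear facts at the prime `r`. -/
structure LinHyp (q p r : ℕ) (ρ : G →* Matrix ι ι K) : Prop where
  cardK : Nat.card K = q ^ 2
  charK : CharP K p
  pp : p.Prime
  p2 : p ≠ 2
  data : Deg4 q ρ
  rr : r.Prime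
  rp : r ≠ p
  rq : ¬ r ∣ q ^ 2 - 1

theorem q_eq_pow [Finite K] {q p : ℕ} [CharP K p] (hp : p.Prime) (hK : Nat.card K = q ^ 2) : ∃ e, q = p ^ e := by
  have := Fintype.ofFinite K
  obtain ⟨n, -, hn⟩ := FiniteField.card K p
  rw [Nat.card_eq_fintype_card, hn] at hK
  have h1 : q ∣ p ^ (n : ℕ) := by rw [hK]; exact dvd_pow_self q two_ne_zero
  obtain ⟨e, -, he⟩ := (Nat.dvd_prime_pow hp).1 h1
  exact ⟨e, he⟩

theorem eq_one_of_coprime {c : G} {m n : ℕ} (h1 : c ^ m = 1) (h2 : c ^ n = 1) (h : m.Coprime n) : c = 1 := by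
  have h3 := Nat.dvd_gcd (orderOf_dvd_of_pow_eq_one h1) (orderOf_dvd_of_pow_eq_one h2)
  rw [h, Nat.dvd_one] at h3
  exact orderOf_eq_one_iff.1 h3

/-- **Abelian `r`-subgroups normalised by `x` are centralised.** -/
theorem cen_of_abelian [Finite K] [Finite G] {q p r : ℕ} {ρ : G →* Matrix ι ι K} (h : LinHyp q p r ρ) {x : G}
    (h4 : x ^ 4 = 1) (hrk : (ρ (x * x) - 1).rank ≤ 2) (hnx : ∀ v, ρ x *ᵥ v = -v → v = 0) {A : Subgroup G}
    (hA : IsPGroup r A) (hab : ∀ a ∈ A, ∀ b ∈ A, a * b = b * a) (hx : ∀ a ∈ A, x⁻¹ * a * x ∈ A) :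
    ∀ a ∈ A, x⁻¹ * a * x = a := by
  classical
  intro a ha
  have hrf : Fact r.Prime := ⟨h.rr⟩
  have hpf : Fact p.Prime := ⟨h.pp⟩
  have := h.charK
  have hchar : CharP (AlgebraicClosure K) p :=
    charP_of_injective_algebraMap (algebraMap K (AlgebraicClosure K)).injective p
  have hrne : ∀ k : ℕ, ((r ^ k : ℕ) : AlgebraicClosure K) ≠ 0 := by
    intro k h0
    rw [CharP.cast_eq_zero_iff (AlgebraicClosure K) p] at h0
    exact h.rp ((Nat.prime_dvd_prime_iff_eq h.pp h.rr).1 (h.pp.dvd_of_dvd_pow h0)).symm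
  have h2 : (2 : AlgebraicClosure K) ≠ 0 := two_ne_zero_of h.pp h.p2
  obtain ⟨n, hn⟩ := IsPGroup.iff_card.1 hA
  have hcA : (Nat.card A : AlgebraicClosure K) ≠ 0 := by rw [hn]; exact hrne n
  have hinj := bar_injective h.data.inj
  obtain ⟨-, key⟩ := Cfsg.Agent.H574.Deg4.order_four (bar ρ) hinj hcA hab h2 hx h4
    (fun v hv => no_neg_map (algebraMap K (AlgebraicClosure K)) hnx v hv)
  set c := a⁻¹ * (x⁻¹ * a * x) with hc
  -- the rank of `c - 1` over `K`
  have hrc : (ρ c - 1).rank ≤ 2 := by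
    refine le_trans (rank_le_of_ker fun v hv => ?_) hrk
    rw [Matrix.sub_mulVec, Matrix.one_mulVec, sub_eq_zero] at hv ⊢
    have h5 : ∀ g : G, bar ρ g (fun i => algebraMap K (AlgebraicClosure K) (v i))
        = fun i => algebraMap K (AlgebraicClosure K) ((ρ g *ᵥ v) i) := by
      intro g
      rw [bar_apply]
      ext i
      simp [Matrix.mulVec, dotProduct, map_sum]
    have h6 := key a ha (fun i => algebraMap K (AlgebraicClosure K) (v i)) (by
      rw [pow_two, h5, hv])
    rw [← hc, h5] at h6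
    ext i
    exact (algebraMap K (AlgebraicClosure K)).injective (congrFun h6 i)
  have hcA' : c ∈ A := A.mul_mem (A.inv_mem ha) (hx a ha)
  obtain ⟨k, hk⟩ := hA ⟨c, hcA'⟩
  have hk' : c ^ r ^ k = 1 := congrArg Subtype.val hk
  have hdet : (ρ c).det = 1 := by
    have hdd : ∀ g : G, (ρ g⁻¹).det * (ρ g).det = 1 := by
      intro g
      rw [← Matrix.det_mul, ← map_mul, inv_mul_cancel, map_one, Matrix.det_one]
    rw [hc, map_mul, map_mul, map_mul, Matrix.det_mul, Matrix.det_mul, Matrix.det_mul]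
    have := hdd a
    have := hdd x
    linear_combination (ρ x⁻¹).det * (ρ x).det * hdd a + hdd x
  obtain ⟨e, he⟩ := q_eq_pow (K := K) h.pp h.cardK
  have h7 := Cfsg.Agent.H574.Deg4.pow_eq_one_of_trace (p := p) (e := e) (bar ρ c) (m := r ^ k)
    (by rw [← map_pow, hk', map_one]) (hrne k)
    (by rw [finrank_range_bar]; exact rank_map_le_two _ _ hrc)
    (by rw [det_bar, hdet, map_one])
    (by rw [trace_bar, ← map_pow, ← he, h.data.tr c hrc])
  rw [← he] at h7
  have h8 : c ^ (q ^ 2 - 1) = 1 := by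
    apply hinj
    rw [map_pow, h7, map_one]
  have h9 : c = 1 := eq_one_of_coprime hk' h8
    (Nat.Coprime.pow_left _ ((Nat.Prime.coprime_iff_not_dvd h.rr).2 h.rq))
  rw [hc, inv_mul_eq_one] at h9
  exact h9.symm

end Bar

end Cfsg.Agent.H558.Deg4Data
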