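import Cfsg.Agent.H558.Deg4Data.NonAb

/-!
# `r`-subgroups normalised by an element of order four of a block are centralised: the linear group
-/

namespace Cfsg.Agent.H558.Deg4Data

open Module Cfsg.Agent.H167.OP

variable {K ι G : Type*} [Field K] [Fintype ι] [DecidableEq ι] [Group G]

theorem nrm_inv_of_four {x : G} (h4 : x ^ 4 = 1) {A : Subgroup G} (hx : Nrm x A) : ∀ a ∈ A, x⁻¹ * a * x ∈ A := by
  intro a ha
  have h1 : x⁻¹ = x ^ 3 := by
    rw [inv_eq_iff_mul_eq_one, ← pow_succ']; exact h4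
  have h2 := hx _ (hx _ (hx a ha))
  have h3 : x * (x * (x * a * x⁻¹) * x⁻¹) * x⁻¹ = x ^ 3 * a * (x ^ 3)⁻¹ := by
    simp only [pow_succ, pow_zero, one_mul, mul_assoc, mul_inv_rev]
  rw [h3, ← h1, inv_inv] at h2
  exact h2

/-- **`r`-subgroups normalised by `x` are centralised by `x`.** -/
theorem cen_of_rgroup [Finite K] [Finite G] {q p r : ℕ} {ρ : G →* Matrix ι ι K} (h : LinHyp q p r ρ) (hr5 : 5 ≤ r)
    {x : G} (h4 : x ^ 4 = 1) (hrk : (ρ (x * x) - 1).rank ≤ 2) (hnx : ∀ v, (ρ x).mulVec v = -v → v = 0) {N : Subgroup G}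
    (hN : IsPGroup r N) (hx : Nrm x N) : Cen x N := by
  have := h.charK
  have hchar : CharP (AlgebraicClosure K) p :=
    charP_of_injective_algebraMap (algebraMap K (AlgebraicClosure K)).injective p
  have hrne : ((r : ℕ) : AlgebraicClosure K) ≠ 0 := by
    intro h0
    rw [CharP.cast_eq_zero_iff (AlgebraicClosure K) p] at h0
    exact h.rp ((Nat.prime_dvd_prime_iff_eq h.pp h.rr).1 h0).symm
  refine cen_abs h.rr hr5 h4 ?_ ?_ hN hx
  · intro A hA hab hxA a ha
    have h1 := cen_of_abelian h h4 hrk hnx hA hab (nrm_inv_of_four h4 hxA) a ha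
    rw [mul_assoc, inv_mul_eq_iff_eq_mul] at h1
    exact h1.symm
  · intro h7 d v w c n hv hvr hwr hcr hvw hcv hcw
    by_contra hc1
    set z := x * x with hz
    have hzz : z * z = 1 := by
      rw [hz, ← h4]; simp only [pow_succ, pow_zero, one_mul, mul_assoc]
    have hzinv : z⁻¹ = z := inv_eq_of_mul_eq_one_right hzz
    have hz2 : finrank (AlgebraicClosure K) (LinearMap.range (bar ρ z - 1)) ≤ 2 := by
      rw [finrank_range_bar]; exact rank_map_le_two _ _ hrk
    have h1 : finrank (AlgebraicClosure K) (LinearMap.range (bar ρ v - 1)) ≤ 4 := by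
      rw [hv]
      refine (rk_pow_le (bar ρ) _ n).trans ?_
      have h2 : z * d * z⁻¹ * d⁻¹ = z * (d * z * d⁻¹) := by rw [hzinv]; group
      rw [h2]
      refine (rk_mul_le (bar ρ) _ _).trans ?_
      have := rk_conj_le' (bar ρ) d z
      omega
    have hinj := bar_injective h.data.inj
    have h2 := rank_ge h.rr hrne (bar ρ v) (bar ρ w) (bar ρ c) (by rw [← map_pow, hcr, map_one])
      (fun h0 => hc1 (hinj (by rw [h0, map_one]))) (by rw [← map_mul, hvw, map_mul, map_mul])
      (by rw [← map_mul, hcv, map_mul]) (by rw [← map_mul, hcw, map_mul]) (by rw [← map_pow, hvr, map_one])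
      (by rw [← map_pow, hwr, map_one])
    omega

end Cfsg.Agent.H558.Deg4Data
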