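import Cfsg.Agent.H558.Deg4Data.CenR

/-!
# Passing to the quotient by a central subgroup
-/

namespace Cfsg.Agent.H558.Deg4Data

open Subgroup Cfsg.Agent.H167.OP

variable {G S : Type*} [Group G] [Group S]

/-- The property of an element: it centralises the `r`-subgroups it normalises. -/
def CenR (r : ℕ) (x : G) : Prop := ∀ N : Subgroup G, IsPGroup r N → Nrm x N → Cen x N

theorem CenR.conj {r : ℕ} {x : G} (h : CenR r x) (g : G) : CenR r (g * x * g⁻¹) := by
  intro N hN hx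
  have h1 : Nrm x (N.map (MulAut.conj g⁻¹).toMonoidHom) := by
    rintro _ ⟨a, ha, rfl⟩
    refine ⟨_, hx a ha, ?_⟩
    simp only [MulEquiv.coe_toMonoidHom, MulAut.conj_apply, inv_inv]
    group
  have h2 := h _ (hN.map _) h1
  intro a ha
  have h3 := h2 _ ⟨a, ha, rfl⟩
  simp only [MulEquiv.coe_toMonoidHom, MulAut.conj_apply, inv_inv] at h3
  calc g * x * g⁻¹ * a = g * (x * (g⁻¹ * a * g)) * g⁻¹ := by group
    _ = g * (g⁻¹ * a * g * x) * g⁻¹ := by rw [h3]
    _ = a * (g * x * g⁻¹) := by group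

theorem CenR.of_subgroup {r : ℕ} {H : Subgroup S} {x : H} (h : CenR r (x : S)) : CenR r x := by
  intro N hN hx
  have h1 : Nrm (x : S) (N.map H.subtype) := by
    rintro _ ⟨a, ha, rfl⟩
    exact ⟨_, hx a ha, rfl⟩
  have h2 := h _ (hN.map _) h1
  intro a ha
  exact Subtype.ext (h2 _ ⟨a, ha, rfl⟩)

theorem CenR.down [Finite G] {f : G →* S} (hf : Function.Surjective f) (hz : ∀ z ∈ f.ker, ∀ g, z * g = g * z) {r : ℕ}
    [hr : Fact r.Prime] {x : G} (h : CenR r x) : CenR r (f x) := by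
  intro N hN hxN
  let M : Subgroup G := N.comap f
  obtain ⟨R⟩ : Nonempty (Sylow r M) := inferInstance
  let R' : Subgroup G := (R : Subgroup M).map M.subtype
  have hR'M : R' ≤ M := map_subtype_le _
  let φ : M →* N := f.subgroupComap N
  have hφ : Function.Surjective φ := by
    rintro ⟨n, hn⟩
    obtain ⟨g, rfl⟩ := hf n
    exact ⟨⟨g, hn⟩, rfl⟩
  have hfR : ∀ n ∈ N, ∃ a ∈ R', f a = n := by
    intro n hn
    have htop : ((R.mapSurjective hφ : Sylow r N) : Subgroup N) = ⊤ := by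
      have h1 : IsPGroup r (⊤ : Subgroup N) := hN.to_subgroup ⊤
      exact ((R.mapSurjective hφ).3 h1 le_top).symm
    have h2 : (⟨n, hn⟩ : N) ∈ ((R.mapSurjective hφ : Sylow r N) : Subgroup N) := by rw [htop]; exact mem_top _
    rw [Sylow.coe_mapSurjective] at h2
    obtain ⟨a, ha, hab⟩ := h2
    exact ⟨a, ⟨a, ha, rfl⟩, congrArg Subtype.val hab⟩
  have hnorm : (R : Subgroup M).Normal := by
    refine ⟨fun a ha m => ?_⟩
    obtain ⟨b, hb, hbm⟩ := hfR (f m) m.2
    have hbz : b⁻¹ * (m : G) ∈ f.ker := by rw [MonoidHom.mem_ker, map_mul, map_inv, hbm, inv_mul_cancel]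
    obtain ⟨b', hb', rfl⟩ := hb
    have h1 : ((m * a * m⁻¹ : M) : G) = ((b' * a * b'⁻¹ : M) : G) := by
      have h2 := hz _ hbz (a : G)
      have h3 : (m : G) = M.subtype b' * ((M.subtype b')⁻¹ * (m : G)) := by group
      show (m : G) * (a : G) * (m : G)⁻¹ = (b' : G) * (a : G) * (b' : G)⁻¹
      have h4 : (m : G) * (a : G) * (m : G)⁻¹
          = M.subtype b' * (((M.subtype b')⁻¹ * (m : G)) * a) * ((M.subtype b')⁻¹ * (m : G))⁻¹ * (M.subtype b')⁻¹ := by
        group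
      rw [h4, h2]
      show (b' : G) * ((a : G) * ((b' : G)⁻¹ * (m : G))) * ((b' : G)⁻¹ * (m : G))⁻¹ * (b' : G)⁻¹ = _
      group
    have h5 : m * a * m⁻¹ = b' * a * b'⁻¹ := Subtype.ext h1
    rw [h5]
    exact (R : Subgroup M).mul_mem ((R : Subgroup M).mul_mem hb' ha) ((R : Subgroup M).inv_mem hb')
  have hnrm : Nrm x R' := by
    -- `x R' x⁻¹` is an `r`-subgroup of `M`
    let A : Subgroup G := R'.map (MulAut.conj x).toMonoidHom
    have hAM : A ≤ M := by
      rintro _ ⟨a, ha, rfl⟩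
      show f (x * a * x⁻¹) ∈ N
      rw [map_mul, map_mul, map_inv]
      exact hxN _ (hR'M ha)
    have hA : IsPGroup r A := (R.2.map _).map _
    have hA' : IsPGroup r (A.subgroupOf M) := hA.comap_of_injective M.subtype M.subtype_injective
    obtain ⟨Q, hQ⟩ := hA'.exists_le_sylow
    have := Sylow.unique_of_normal R hnorm
    have hQR : Q = R := Subsingleton.elim _ _
    rw [hQR] at hQ
    intro a ha
    have h1 : x * a * x⁻¹ ∈ A := ⟨a, ha, rfl⟩
    exact ⟨⟨x * a * x⁻¹, hAM h1⟩, hQ (mem_subgroupOf.2 h1), rfl⟩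
  have hcen := h R' (R.2.map _) hnrm
  intro n hn
  obtain ⟨a, ha, rfl⟩ := hfR n hn
  rw [← map_mul, hcen a ha, map_mul]

end Cfsg.Agent.H558.Deg4Data
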