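import Cfsg.Agent.H558.Deg4Data.Block
import Cfsg.Agent.ClassicalGeometry.GUBasic
import Cfsg.Agent.ClassicalGeometry.HermWitt
import Cfsg.Agent.ClassicalGeometry.PSL2Basic

/-!
# Elements of prime order dividing `q² - 1` in `SL₂(q)` and `SU₂(q)`
-/

namespace Cfsg.Agent.H558.Deg4Data

open Matrix Polynomial

/-- A `2 × 2` matrix of determinant `1` and trace `a + a⁻¹` satisfies `B ^ t = 1` when `a` does, `a² ≠ 1`. -/
theorem pow_eq_one_of_trace {K : Type*} [Field K] {a : K} {t : ℕ} (ha0 : a ≠ 0) (ha : a ^ t = 1) (ha2 : a ≠ a⁻¹)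
    (B : Matrix (Fin 2) (Fin 2) K) (hdet : B.det = 1) (htr : B.trace = a + a⁻¹) : B ^ t = 1 := by
  have h1 : (X - C a : K[X]) ∣ X ^ t - 1 := by
    rw [Polynomial.dvd_iff_isRoot]; simp [ha]
  have h2 : (X - C a⁻¹ : K[X]) ∣ X ^ t - 1 := by
    rw [Polynomial.dvd_iff_isRoot]; simp [ha]
  have h3 : IsCoprime (X - C a : K[X]) (X - C a⁻¹) :=
    Polynomial.isCoprime_X_sub_C_of_isUnit_sub (sub_ne_zero.2 ha2).isUnit
  have h4 : (X - C a) * (X - C a⁻¹) ∣ (X ^ t - 1 : K[X]) := h3.mul_dvd h1 h2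
  have h5 : B.charpoly = (X - C a) * (X - C a⁻¹) := by
    rw [Matrix.charpoly_fin_two, hdet, htr, map_add, map_one]
    have : C a * C a⁻¹ = (1 : K[X]) := by rw [← map_mul, mul_inv_cancel₀ ha0, map_one]
    linear_combination -this
  obtain ⟨r, hr⟩ := h4
  have h6 := congrArg (aeval B) hr
  rw [← h5, map_mul, Matrix.aeval_self_charpoly, zero_mul] at h6
  simp only [map_sub, map_pow, aeval_X, map_one] at h6
  exact sub_eq_zero.1 h6

/-- An element of prime order `t ∣ q² - 1` in a field with `q²` elements, and its trace. -/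
theorem exists_root {F : Type*} [Field F] [Fintype F] {q : ℕ} (hF : Fintype.card F = q ^ 2) {t : ℕ} (ht : t.Prime)
    (ht2 : t ≠ 2) (htq : t ∣ q ^ 2 - 1) : ∃ a : F, a ≠ 0 ∧ a ^ t = 1 ∧ a ≠ 1 ∧ a ≠ a⁻¹ ∧ (a ^ q = a ∨ a ^ q = a⁻¹) := by
  classical
  have : Fact t.Prime := ⟨ht⟩
  have hcard : Fintype.card Fˣ = q ^ 2 - 1 := by rw [Fintype.card_units, hF]
  obtain ⟨a, ha⟩ := exists_prime_orderOf_dvd_card t (G := Fˣ) (by rw [hcard]; exact htq)
  have hat : a ^ t = 1 := by rw [← ha]; exact pow_orderOf_eq_one a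
  have ha1 : a ≠ 1 := by
    rintro rfl
    rw [orderOf_one] at ha
    exact ht.one_lt.ne ha
  have ha2 : a ≠ a⁻¹ := by
    intro h
    have : a ^ 2 = 1 := by rw [pow_two]; nth_rewrite 2 [h]; simp
    have := orderOf_dvd_of_pow_eq_one this
    rw [ha] at this
    exact ht2 ((Nat.prime_dvd_prime_iff_eq ht Nat.prime_two).1 this)
  have hq := ClassicalGeometry.GUBasic.two_le hF
  have hfac : q ^ 2 - 1 = (q + 1) * (q - 1) := by
    have := Nat.sq_sub_sq q 1
    simpa using this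
  have hcase : a ^ q = a ∨ a ^ q = a⁻¹ := by
    rw [hfac] at htq
    rcases (Nat.Prime.dvd_mul ht).1 htq with h | h
    · right
      have : a ^ (q + 1) = 1 := by
        rw [← orderOf_dvd_iff_pow_eq_one, ha]; exact h
      rw [pow_succ] at this
      exact eq_inv_of_mul_eq_one_left this
    · left
      have : a ^ (q - 1) = 1 := by
        rw [← orderOf_dvd_iff_pow_eq_one, ha]; exact h
      calc a ^ q = a ^ (q - 1 + 1) := by rw [Nat.sub_add_cancel (by omega)]
        _ = a := by rw [pow_succ, this, one_mul]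
  refine ⟨(a : F), a.ne_zero, ?_, ?_, ?_, ?_⟩
  · rw [← Units.val_pow_eq_pow_val, hat, Units.val_one]
  · intro h; exact ha1 (Units.ext h)
  · intro h
    apply ha2
    apply Units.ext
    rw [Units.val_inv_eq_inv_val]; exact h
  · rcases hcase with h | h
    · left; rw [← Units.val_pow_eq_pow_val, h]
    · right; rw [← Units.val_pow_eq_pow_val, h, Units.val_inv_eq_inv_val]

/-- **Elements of order `t` in `SU₂(q)`.** -/
theorem exists_su_two {F : Type*} [Field F] [Fintype F] {q : ℕ} (hF : Fintype.card F = q ^ 2) (h2 : (2 : F) ≠ 0)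
    {t : ℕ} (ht : t.Prime) (ht2 : t ≠ 2) (htq : t ∣ q ^ 2 - 1) :
    ∃ B : Matrix (Fin 2) (Fin 2) F, B.det = 1 ∧ Bᵀ * B.map (fun x => x ^ q) = 1 ∧ B ^ t = 1 ∧ B ≠ 1 := by
  obtain ⟨a, ha0, hat, ha1, ha2, hcase⟩ := exists_root hF ht ht2 htq
  obtain ⟨σ, hσ⟩ := ClassicalGeometry.GUBasic.exists_powHom hF
  have hq := ClassicalGeometry.GUBasic.two_le hF
  have hσ2 : ∀ x : F, σ (σ x) = x := by
    intro x
    rw [hσ, hσ, ← pow_mul, ← pow_two, ← hF, FiniteField.pow_card]
  have hσid : σ ≠ RingHom.id F := by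
    intro h
    have h1 : ∀ x : F, x ^ q = x := fun x => by rw [← hσ, h]; rfl
    have h3 := FiniteField.X_pow_card_sub_X_ne_zero F (p := q) (by omega)
    have h4 : Fintype.card F ≤ q := by
      have h5 : (Finset.univ : Finset F).card ≤ (X ^ q - X : F[X]).natDegree := by
        apply Polynomial.card_le_degree_of_subset_roots
        intro x _
        rw [Polynomial.mem_roots h3]
        simp [h1 x]
      rwa [FiniteField.X_pow_card_sub_X_natDegree_eq F (by omega), Finset.card_univ] at h5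
    rw [hF] at h4
    nlinarith
  have hs : σ (a + a⁻¹) = a + a⁻¹ := by
    rw [map_add, map_inv₀, hσ]
    rcases hcase with h | h
    · rw [h]
    · rw [h, inv_inv, add_comm]
  obtain ⟨c, hσc, hcc⟩ : ∃ c : F, σ c = c ∧ c + c = a + a⁻¹ :=
    ⟨(a + a⁻¹) / 2, by rw [map_div₀, hs, map_ofNat], by field_simp; ring⟩
  have h1c : 1 - c ^ 2 ≠ 0 := by
    intro h
    have h3 : (a + a⁻¹) ^ 2 = 4 := by rw [← hcc]; linear_combination -4 * h
    have h4 : (a - a⁻¹) ^ 2 = 0 := by
      have : a * a⁻¹ = 1 := mul_inv_cancel₀ ha0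
      linear_combination h3 - 4 * this
    exact ha2 (sub_eq_zero.1 (pow_eq_zero_iff (two_ne_zero) |>.1 h4))
  obtain ⟨b, -, hb⟩ := ClassicalGeometry.HermWitt.norm_surj σ hσid hσ2 (1 - c ^ 2)
    (by rw [map_sub, map_pow, hσc, map_one]) h1c
  have hmap : (!![c, b; -σ b, c] : Matrix (Fin 2) (Fin 2) F).map (fun x => x ^ q) = !![c, σ b; -b, c] := by
    have h5 : (fun x : F => x ^ q) = fun x => σ x := by ext x; rw [hσ]
    rw [h5]
    ext i j
    fin_cases i <;> fin_cases j <;> simp [hσc, hσ2]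
  have hdet : (!![c, b; -σ b, c] : Matrix (Fin 2) (Fin 2) F).det = 1 := by
    rw [Matrix.det_fin_two_of]; linear_combination hb
  have htr : (!![c, b; -σ b, c] : Matrix (Fin 2) (Fin 2) F).trace = a + a⁻¹ := by
    rw [Matrix.trace_fin_two_of, hcc]
  refine ⟨!![c, b; -σ b, c], hdet, ?_, pow_eq_one_of_trace ha0 hat ha2 _ hdet htr, ?_⟩
  · rw [hmap]
    ext i j
    fin_cases i <;> fin_cases j <;> simp [Matrix.mul_apply, Fin.sum_univ_two] <;>
      first | linear_combination hb | ring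
  · intro h
    have h3 : (1 : Matrix (Fin 2) (Fin 2) F).trace = a + a⁻¹ := by rw [← h, htr]
    rw [Matrix.trace_one] at h3
    have h4 : (a - 1) ^ 2 = 0 := by
      have h5 : a * a⁻¹ = 1 := mul_inv_cancel₀ ha0
      simp only [Fintype.card_fin, Nat.cast_ofNat] at h3
      linear_combination -a * h3 - h5
    exact ha1 (sub_eq_zero.1 (pow_eq_zero_iff (two_ne_zero) |>.1 h4))

/-- **Elements of order `t` in `SL₂(q)`.** -/
theorem exists_sl_two {F : Type*} [Field F] [Fintype F] {t : ℕ} (ht : t.Prime) (htq : t ∣ Fintype.card F ^ 2 - 1) :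
    ∃ B : Matrix (Fin 2) (Fin 2) F, B.det = 1 ∧ B ^ t = 1 ∧ B ≠ 1 := by
  classical
  have : Fact t.Prime := ⟨ht⟩
  obtain ⟨B, hB⟩ := exists_prime_orderOf_dvd_card' t (G := Matrix.SpecialLinearGroup (Fin 2) F)
    (by rw [ClassicalGeometry.PSL2Basic.card_SL2]; exact Dvd.dvd.mul_left htq _)
  refine ⟨(B : Matrix (Fin 2) (Fin 2) F), B.2, ?_, ?_⟩
  · rw [← Matrix.SpecialLinearGroup.coe_pow, ← hB, pow_orderOf_eq_one, Matrix.SpecialLinearGroup.coe_one]
  · intro h
    have : B = 1 := Subtype.ext h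
    rw [this, orderOf_one] at hB
    exact ht.one_lt.ne hB

end Cfsg.Agent.H558.Deg4Data
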