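import Cfsg.Agent.H558.Deg4Data.Eigen
import Cfsg.Agent.H558.Deg4Data.Order

/-!
# The data for `SL_n(q)`, `SU_n(q)`, `Sp_2m(q)`, `q` odd
-/

namespace Cfsg.Agent.H558.Deg4Data

open Matrix

/-- The data of a linear group `ρ : G → GL_ι(K)`:
traces of elements which are the identity up to rank two, commuting elements of order four with a basis of separated joint eigenvectors,
elements of prime order `t ∣ q² - 1` which are the identity up to rank two. -/
structure Deg4 (q : ℕ) {K ι G : Type*} [Field K] [Fintype ι] [DecidableEq ι] [Group G] (ρ : G →* Matrix ι ι K) : Prop where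
  inj : Function.Injective ρ
  tr : ∀ g, (ρ g - 1).rank ≤ 2 → (ρ g).trace ^ q = (ρ g).trace
  tor : ∃ (m : ℕ) (x : Fin m → G) (b : Module.Basis ι K (ι → K)) (ev : Fin m → ι → K),
    (∀ i, x i ^ 4 = 1) ∧ (∀ i, (ρ (x i ^ 2) - 1).rank ≤ 2) ∧ (∀ i j, ρ (x i) *ᵥ b j = ev i j • b j) ∧
    (∀ i j, ev i j ≠ -1) ∧ ∀ j j', j ≠ j' → ∃ i, ev i j ≠ ev i j'
  prm : ∀ t, t.Prime → t ≠ 2 → t ∣ q ^ 2 - 1 → ∃ z : G, orderOf z = t ∧ (ρ z - 1).rank ≤ 2

section Map

variable {F K : Type*} [Field F] [Field K] (f : F →+* K) {ι : Type*} [Fintype ι] [DecidableEq ι]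

theorem map_colU (e : Fin 2 → ι) : (colU (K := F) e).map f = colU (K := K) e := by
  ext i k; simp [colU, Matrix.map_apply, apply_ite f]

theorem map_wq : (wq F).map f = wq K := by
  ext i j; fin_cases i <;> fin_cases j <;> simp [wq]

theorem map_blk (U : Matrix ι (Fin 2) F) (W : Matrix (Fin 2) ι F) (B : Matrix (Fin 2) (Fin 2) F) :
    (blk U W B).map f = blk (U.map f) (W.map f) (B.map f) := by
  unfold blk
  rw [Matrix.map_add _ (map_add f), Matrix.map_mul, Matrix.map_mul, Matrix.map_sub _ (map_sub f),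
    Matrix.map_one _ (map_zero f) (map_one f), Matrix.map_one _ (map_zero f) (map_one f)]

theorem map_blk_colU (e : Fin 2 → ι) (B : Matrix (Fin 2) (Fin 2) F) :
    (blk (colU (K := F) e) (colU (K := F) e)ᵀ B).map f = blk (colU (K := K) e) (colU (K := K) e)ᵀ (B.map f) := by
  rw [map_blk, map_colU, Matrix.transpose_map, map_colU]

end Map

section General

variable {F K : Type*} [Field F] [Field K] (f : F →+* K) {ι : Type*} [Fintype ι] [DecidableEq ι] {m : ℕ}
  {e : Fin m → Fin 2 → ι}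

/-- The block matrix. -/
def bm (e' : Fin 2 → ι) (B : Matrix (Fin 2) (Fin 2) F) : Matrix ι ι F := blk (colU (K := F) e') (colU (K := F) e')ᵀ B

theorem bm_mul {e' : Fin 2 → ι} (he : Function.Injective e') (A B : Matrix (Fin 2) (Fin 2) F) :
    bm e' (A * B) = bm e' A * bm e' B := blk_mul (colU_transpose_mul e' he) A B

theorem bm_one (e' : Fin 2 → ι) : bm e' (1 : Matrix (Fin 2) (Fin 2) F) = 1 := blk_one

theorem bm_pow {e' : Fin 2 → ι} (he : Function.Injective e') (A : Matrix (Fin 2) (Fin 2) F) (k : ℕ) :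
    bm e' (A ^ k) = bm e' A ^ k := blk_pow (colU_transpose_mul e' he) A k

theorem bm_inj {e' : Fin 2 → ι} (he : Function.Injective e') : Function.Injective (bm (F := F) e') :=
  blk_injective (colU_transpose_mul e' he)

theorem det_bm {e' : Fin 2 → ι} (he : Function.Injective e') (A : Matrix (Fin 2) (Fin 2) F) :
    (bm e' A).det = A.det := det_blk (colU_transpose_mul e' he) A

theorem bm_transpose (e' : Fin 2 → ι) (A : Matrix (Fin 2) (Fin 2) F) : (bm e' A)ᵀ = bm e' Aᵀ := blk_transpose A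

theorem rank_bm_sub_one (e' : Fin 2 → ι) (A : Matrix (Fin 2) (Fin 2) F) : (bm e' A - 1).rank ≤ 2 :=
  rank_blk_sub_one A

theorem map_bm (e' : Fin 2 → ι) (A : Matrix (Fin 2) (Fin 2) F) : (bm e' A).map f = bm e' (A.map f) :=
  map_blk_colU f e' A



/-- The torus part of the data. -/
theorem tor_of {G : Type*} [Group G] (ρ : G →* Matrix ι ι K) (hρ : Function.Injective ρ) (he : Pairs e)
    (hI : ∃ I : K, I * I = -1) (h2 : (2 : K) ≠ 0) (hx : ∀ i, ∃ x : G, ρ x = bm (e i) (wq K)) :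
    ∃ (m : ℕ) (x : Fin m → G) (b : Module.Basis ι K (ι → K)) (ev : Fin m → ι → K),
    (∀ i, x i ^ 4 = 1) ∧ (∀ i, (ρ (x i ^ 2) - 1).rank ≤ 2) ∧ (∀ i j, ρ (x i) *ᵥ b j = ev i j • b j) ∧
    (∀ i j, ev i j ≠ -1) ∧ ∀ j j', j ≠ j' → ∃ i, ev i j ≠ ev i j' := by
  obtain ⟨I, hI⟩ := hI
  choose x hx using hx
  obtain ⟨b, hb⟩ := exists_basis he hI h2
  refine ⟨m, x, b, evl e I, fun i => ?_, fun i => ?_, fun i j => ?_, evl_ne_neg_one he hI h2,
    fun j j' hj => evl_sep he hI h2 hj⟩
  · apply hρ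
    rw [map_pow, hx, ← bm_pow (he.injective i), wq_pow_four, bm_one, map_one]
  · rw [map_pow, hx, ← bm_pow (he.injective i)]
    exact rank_bm_sub_one _ _
  · rw [hx]; exact hb i j

/-- The prime order part of the data. -/
theorem prm_of {G : Type*} [Group G] (ρ : G →* Matrix ι ι K) (hρ : Function.Injective ρ) {e' : Fin 2 → ι}
    (he : Function.Injective e') {t : ℕ} (ht : t.Prime) {B : Matrix (Fin 2) (Fin 2) K} (hB : B ^ t = 1) (hB1 : B ≠ 1)
    {x : G} (hx : ρ x = bm e' B) : orderOf x = t ∧ (ρ x - 1).rank ≤ 2 := by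
  have := Fact.mk ht
  refine ⟨orderOf_eq_prime ?_ ?_, ?_⟩
  · apply hρ
    rw [map_pow, hx, ← bm_pow he, hB, bm_one, map_one]
  · intro h
    rw [h, map_one] at hx
    exact hB1 (bm_inj he (hx.symm.trans (bm_one e').symm))
  · rw [hx]; exact rank_bm_sub_one _ _

end General

section Pairs

theorem pairs_fin (n : ℕ) : Pairs (fun (i : Fin (n / 2)) (k : Fin 2) => (⟨2 * i + k, by omega⟩ : Fin n)) where
  inj i k i' k' h := by
    simp only [Fin.mk.injEq] at h
    constructor <;> ext <;> omega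
  cover j j' h h' := by
    have key : ∀ j : Fin n, (∀ (i : Fin (n / 2)) (k : Fin 2), j ≠ (⟨2 * i + k, by omega⟩ : Fin n)) → (j : ℕ) = n - 1 ∧ n % 2 = 1 := by
      intro j h
      by_contra hcon
      have hj := j.2
      have h1 : (j : ℕ) / 2 < n / 2 := by omega
      refine h ⟨j / 2, h1⟩ ⟨j % 2, by omega⟩ ?_
      ext
      show (j : ℕ) = 2 * (j / 2) + j % 2
      omega
    ext
    rw [(key j h).1, (key j' h').1]

theorem pairs_sum (m : ℕ) :
    Pairs (fun (i : Fin m) (k : Fin 2) => (if k = 0 then Sum.inl i else Sum.inr i : Fin m ⊕ Fin m)) where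
  inj i k i' k' h := by
    fin_cases k <;> fin_cases k' <;> simp_all
  cover j j' h h' := by
    exfalso
    rcases j with i | i
    · exact h i 0 (by simp)
    · exact h i 1 (by simp)

end Pairs

end Cfsg.Agent.H558.Deg4Data
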