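import Cfsg.Agent.H558.Deg4Data.Fam
import Cfsg.Prelude.Def_Classical

/-!
# `SL_n(q)`, `SU_n(q)` and `Sp_2m(q)`, `q` odd, carry the data `Deg4`
-/

namespace Cfsg.Agent.H558.Deg4Data

open Matrix

section SL

variable {F K : Type*} [Field F] [Field K] (f : F →+* K)

/-- `SL_n(F)` in matrices over an extension `K`. -/
def rhoSL (n : ℕ) : Matrix.SpecialLinearGroup (Fin n) F →* Matrix (Fin n) (Fin n) K :=
  f.mapMatrix.toMonoidHom.comp (slToMat n F)

theorem rhoSL_apply (n : ℕ) (g : Matrix.SpecialLinearGroup (Fin n) F) :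
    rhoSL f n g = (g : Matrix (Fin n) (Fin n) F).map f := rfl

theorem map_injective {ι : Type*} : Function.Injective (fun A : Matrix ι ι F => A.map f) :=
  Matrix.map_injective f.injective

theorem rhoSL_injective (n : ℕ) : Function.Injective (rhoSL f n) := by
  intro g h hgh
  exact Subtype.ext (map_injective f hgh)

theorem deg4_SL [Fintype F] {q : ℕ} (hq : Fintype.card F = q) (h2 : (2 : F) ≠ 0) (hI : ∃ I : K, I * I = -1) {n : ℕ}
    (hn : 2 ≤ n) : Deg4 q (rhoSL f n) where
  inj := rhoSL_injective f n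
  tr g _ := by
    have h1 : (rhoSL f n g).trace = f (g : Matrix (Fin n) (Fin n) F).trace := by
      rw [rhoSL_apply]
      simp [Matrix.trace]
    rw [h1, ← map_pow, ← hq, FiniteField.pow_card]
  tor := by
    have h2K : (2 : K) ≠ 0 := by
      intro h
      apply h2
      apply f.injective
      rw [map_ofNat, map_zero]; exact h
    refine tor_of (rhoSL f n) (rhoSL_injective f n) (pairs_fin n) hI h2K fun i => ?_
    refine ⟨(⟨bm _ (wq F), (det_bm ((pairs_fin n).injective i) _).trans det_wq⟩ :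
      Matrix.SpecialLinearGroup (Fin n) F), ?_⟩
    show (bm _ (wq F)).map f = _
    rw [map_bm, map_wq]
  prm t ht _ htq := by
    rw [← hq] at htq
    obtain ⟨B, hdet, hB, hB1⟩ := exists_sl_two (F := F) ht htq
    have i0 : Fin (n / 2) := ⟨0, by omega⟩
    have he := (pairs_fin n).injective i0
    refine ⟨(⟨bm _ B, (det_bm he _).trans hdet⟩ : Matrix.SpecialLinearGroup (Fin n) F), ?_⟩
    refine prm_of (rhoSL f n) (rhoSL_injective f n) he ht (B := B.map f) ?_ ?_ ?_
    · have := congrArg (f.mapMatrix) hB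
      rwa [map_pow, map_one] at this
    · intro h
      apply hB1
      apply map_injective f
      show B.map f = (1 : Matrix (Fin 2) (Fin 2) F).map f
      rw [h, Matrix.map_one _ (map_zero f) (map_one f)]
    · show (bm _ B).map f = _
      rw [map_bm]

end SL

section SU

variable {F K : Type*} [Field F] [Field K] (f : F →+* K)

/-- `SU_n(q)` in matrices over an extension `K`. -/
def rhoSU (n q : ℕ) : SU n F q →* Matrix (Fin n) (Fin n) K := (rhoSL f n).comp (SU n F q).subtype

theorem rhoSU_apply (n q : ℕ) (g : SU n F q) :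
    rhoSU f n q g = ((g : Matrix.SpecialLinearGroup (Fin n) F) : Matrix (Fin n) (Fin n) F).map f := rfl

theorem rhoSU_injective (n q : ℕ) : Function.Injective (rhoSU f n q) :=
  (rhoSL_injective f n).comp Subtype.val_injective

/-- A matrix with `Aᵀ A^σ = 1` preserves the Hermitian form. -/
theorem mem_SU_of [Fintype F] {n q : ℕ} (hF : Fintype.card F = q ^ 2) (A : Matrix.SpecialLinearGroup (Fin n) F)
    (hA : (A : Matrix (Fin n) (Fin n) F)ᵀ * (A : Matrix (Fin n) (Fin n) F).map (fun x => x ^ q) = 1) : A ∈ SU n F q := by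
  obtain ⟨σ, hσ⟩ := ClassicalGeometry.GUBasic.exists_powHom hF
  show ∀ u v : Fin n → F, hermForm n F q ((A : Matrix (Fin n) (Fin n) F) *ᵥ u)
        ((A : Matrix (Fin n) (Fin n) F) *ᵥ v) = hermForm n F q u v
  intro u v
  have hf : ∀ a b : Fin n → F, hermForm n F q a b = a ⬝ᵥ (fun i => b i ^ q) := fun a b => rfl
  have h1 : (fun i => (((A : Matrix (Fin n) (Fin n) F) *ᵥ v) i) ^ q)
      = ((A : Matrix (Fin n) (Fin n) F).map (fun x => x ^ q)) *ᵥ (fun i => v i ^ q) := by
    ext i
    rw [← hσ]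
    simp only [Matrix.mulVec, dotProduct, Matrix.map_apply, ← hσ, map_sum, map_mul]
  rw [hf, hf, h1, Matrix.dotProduct_mulVec]
  nth_rewrite 1 [← Matrix.transpose_transpose (A : Matrix (Fin n) (Fin n) F)]
  rw [Matrix.mulVec_transpose, Matrix.vecMul_vecMul, hA, Matrix.vecMul_one]

theorem deg4_SU [Fintype F] {q n : ℕ} (hF : Fintype.card F = q ^ 2) (h2 : (2 : F) ≠ 0) (hI : ∃ I : K, I * I = -1)
    (hn : 2 ≤ n) : Deg4 q (rhoSU f n q) where
  inj := rhoSU_injective f n q
  tr g hg := by
    obtain ⟨σ, hσ⟩ := ClassicalGeometry.GUBasic.exists_powHom hF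
    have hq := ClassicalGeometry.GUBasic.two_le hF
    set A : Matrix (Fin n) (Fin n) F := ((g : Matrix.SpecialLinearGroup (Fin n) F) : Matrix (Fin n) (Fin n) F) with hA
    have hdet : A.det = 1 := (g : Matrix.SpecialLinearGroup (Fin n) F).2
    have h1 : Aᵀ * A.map (fun x => x ^ q) = 1 :=
      ClassicalGeometry.GUBasic.transpose_mul_map (by omega) g.2
    have h3 : A.map (fun x => x ^ q) = (A⁻¹)ᵀ := by
      rw [Matrix.transpose_nonsing_inv]
      exact (Matrix.inv_eq_right_inv h1).symm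
    have h4 : A.trace ^ q = A⁻¹.trace := by
      rw [← Matrix.trace_transpose A⁻¹, ← h3, ← hσ, Matrix.trace, map_sum]
      simp [Matrix.trace, hσ]
    have h5 : (rhoSU f n q g).trace = f A.trace := by
      rw [rhoSU_apply]
      simp [Matrix.trace, ← hA]
    have h6 : (A.map f)⁻¹ = (A⁻¹).map f := by
      apply Matrix.inv_eq_right_inv
      rw [← Matrix.map_mul, Matrix.mul_nonsing_inv _ (by rw [hdet]; exact isUnit_one),
        Matrix.map_one _ (map_zero f) (map_one f)]
    have h7 := trace_inv_eq (A.map f) (by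
      have := RingHom.map_det f A
      rw [hdet, map_one] at this
      exact this.symm) hg
    rw [h6] at h7
    have h8 : (A⁻¹.map f).trace = f A⁻¹.trace := by simp [Matrix.trace]
    have h9 : (A.map f).trace = f A.trace := by simp [Matrix.trace]
    rw [h8, h9] at h7
    rw [h5, ← map_pow, h4, h7]
  tor := by
    have h2K : (2 : K) ≠ 0 := by
      intro h
      apply h2
      apply f.injective
      rw [map_ofNat, map_zero]; exact h
    refine tor_of (rhoSU f n q) (rhoSU_injective f n q) (pairs_fin n) hI h2K fun i => ?_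
    have he := (pairs_fin n).injective i
    obtain ⟨σ, hσ⟩ := ClassicalGeometry.GUBasic.exists_powHom hF
    have hσ' : (fun x : F => x ^ q) = σ := by ext x; rw [hσ]
    refine ⟨⟨⟨bm _ (wq F), (det_bm he _).trans det_wq⟩, mem_SU_of hF _ ?_⟩, ?_⟩
    · show (bm _ (wq F))ᵀ * (bm _ (wq F)).map (fun x => x ^ q) = 1
      rw [hσ', map_bm, map_wq, bm_transpose, ← bm_mul he]
      have : (wq F)ᵀ * wq F = 1 := by
        ext i j; fin_cases i <;> fin_cases j <;> simp [wq, Matrix.mul_apply, Fin.sum_univ_two]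
      rw [this, bm_one]
    · rw [rhoSU_apply]
      show (bm _ (wq F)).map f = _
      rw [map_bm, map_wq]
  prm t ht ht2 htq := by
    obtain ⟨B, hdet, hBu, hB, hB1⟩ := exists_su_two hF h2 ht ht2 htq
    have i0 : Fin (n / 2) := ⟨0, by omega⟩
    have he := (pairs_fin n).injective i0
    obtain ⟨σ, hσ⟩ := ClassicalGeometry.GUBasic.exists_powHom hF
    have hσ' : (fun x : F => x ^ q) = σ := by ext x; rw [hσ]
    refine ⟨⟨⟨bm _ B, (det_bm he _).trans hdet⟩, mem_SU_of hF _ ?_⟩, ?_⟩
    · show (bm _ B)ᵀ * (bm _ B).map (fun x => x ^ q) = 1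
      rw [hσ', map_bm, bm_transpose, ← bm_mul he, ← hσ', hBu, bm_one]
    · refine prm_of (rhoSU f n q) (rhoSU_injective f n q) he ht (B := B.map f) ?_ ?_ ?_
      · have := congrArg (f.mapMatrix) hB
        rwa [map_pow, map_one] at this
      · intro h
        apply hB1
        apply map_injective f
        show B.map f = (1 : Matrix (Fin 2) (Fin 2) F).map f
        rw [h, Matrix.map_one _ (map_zero f) (map_one f)]
      · rw [rhoSU_apply]
        show (bm _ B).map f = _
        rw [map_bm]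

end SU

section Sp

variable {F K : Type*} [Field F] [Field K] (f : F →+* K)

/-- `Sp_2m(F)` in matrices over an extension `K`. -/
def rhoSp (m : ℕ) : Matrix.symplecticGroup (Fin m) F →* Matrix (Fin m ⊕ Fin m) (Fin m ⊕ Fin m) K :=
  f.mapMatrix.toMonoidHom.comp (Matrix.symplecticGroup (Fin m) F).subtype

theorem rhoSp_apply (m : ℕ) (g : Matrix.symplecticGroup (Fin m) F) :
    rhoSp f m g = (g : Matrix (Fin m ⊕ Fin m) (Fin m ⊕ Fin m) F).map f := rfl

theorem rhoSp_injective (m : ℕ) : Function.Injective (rhoSp f m) := by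
  intro g h hgh
  exact Subtype.ext (map_injective f hgh)

/-- The two indices of the `i`-th hyperbolic plane. -/
def spIdx {m : ℕ} (i : Fin m) (k : Fin 2) : Fin m ⊕ Fin m := if k = 0 then Sum.inl i else Sum.inr i

theorem J_mul_colU {m : ℕ} (i : Fin m) :
    Matrix.J (Fin m) F * colU (K := F) (spIdx i) = colU (K := F) (spIdx i) * (-wq F) := by
  ext j k
  rw [Matrix.mul_apply, Matrix.mul_apply, Fin.sum_univ_two]
  simp only [Fintype.sum_sum_type, Matrix.J, colU, spIdx]
  rcases j with j | j <;> fin_cases k <;> simp [Matrix.one_apply, wq, eq_comm]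

theorem transpose_mul_J {m : ℕ} (i : Fin m) :
    (colU (K := F) (spIdx i))ᵀ * Matrix.J (Fin m) F = (-wq F) * (colU (K := F) (spIdx i))ᵀ := by
  have h := congrArg Matrix.transpose (J_mul_colU (F := F) i)
  rw [Matrix.transpose_mul, Matrix.transpose_mul, Matrix.J_transpose, Matrix.mul_neg] at h
  have h1 : (-wq F)ᵀ = wq F := by ext i j; fin_cases i <;> fin_cases j <;> simp [wq]
  rw [h1] at h
  rw [Matrix.neg_mul, ← h, neg_neg]

theorem bm_mem_sp {m : ℕ} (i : Fin m) (B : Matrix (Fin 2) (Fin 2) F) (hB : B.det = 1) :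
    bm (spIdx i) B ∈ Matrix.symplecticGroup (Fin m) F := by
  rw [SymplecticGroup.mem_iff, bm_transpose]
  have hinj : Function.Injective (spIdx i) := by
    intro k k' h; fin_cases k <;> fin_cases k' <;> simp_all [spIdx]
  have hU := colU_transpose_mul (K := F) (spIdx i) hinj
  have hBB : B * (-wq F) * Bᵀ = -wq F := by
    rw [Matrix.det_fin_two] at hB
    ext i j
    fin_cases i <;> fin_cases j <;> simp [wq, Matrix.mul_apply, Fin.sum_univ_two] <;>
      first | linear_combination hB | linear_combination -hB | ring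
  set U := colU (K := F) (spIdx i) with hUdef
  have e1 : bm (spIdx i) B * Matrix.J (Fin m) F * bm (spIdx i) Bᵀ =
      Matrix.J (Fin m) F + U * ((B - 1) * (-wq F) + (-wq F) * (Bᵀ - 1) + (B - 1) * (-wq F) * (Bᵀ - 1)) * Uᵀ := by
    have a1 : U * (B - 1) * Uᵀ * Matrix.J (Fin m) F = U * ((B - 1) * (-wq F)) * Uᵀ := by
      rw [Matrix.mul_assoc, hUdef, transpose_mul_J, ← hUdef]
      simp only [Matrix.mul_assoc]
    have a2 : Matrix.J (Fin m) F * (U * (Bᵀ - 1) * Uᵀ) = U * ((-wq F) * (Bᵀ - 1)) * Uᵀ := by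
      rw [← Matrix.mul_assoc, ← Matrix.mul_assoc, hUdef, J_mul_colU, ← hUdef]
      simp only [Matrix.mul_assoc]
    have a3 : U * ((B - 1) * (-wq F)) * Uᵀ * (U * (Bᵀ - 1) * Uᵀ) = U * ((B - 1) * (-wq F) * (Bᵀ - 1)) * Uᵀ := by
      calc U * ((B - 1) * (-wq F)) * Uᵀ * (U * (Bᵀ - 1) * Uᵀ)
          = U * ((B - 1) * (-wq F)) * (Uᵀ * U) * (Bᵀ - 1) * Uᵀ := by simp only [Matrix.mul_assoc]
        _ = _ := by rw [hU, Matrix.mul_one]; simp only [Matrix.mul_assoc]
    unfold bm blk
    rw [← hUdef, Matrix.add_mul, Matrix.one_mul, a1, Matrix.mul_add, Matrix.mul_one, Matrix.add_mul, a2, a3]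
    simp only [Matrix.mul_add, Matrix.add_mul]
    abel
  have e2 : (B - 1) * (-wq F) + (-wq F) * (Bᵀ - 1) + (B - 1) * (-wq F) * (Bᵀ - 1) = 0 := by
    have : (B - 1) * (-wq F) + (-wq F) * (Bᵀ - 1) + (B - 1) * (-wq F) * (Bᵀ - 1) = B * (-wq F) * Bᵀ - (-wq F) := by
      noncomm_ring
    rw [this, hBB, sub_self]
  rw [e1, e2, Matrix.mul_zero, Matrix.zero_mul, add_zero]

theorem pairs_spIdx (m : ℕ) : Pairs (spIdx : Fin m → Fin 2 → Fin m ⊕ Fin m) := pairs_sum m

theorem deg4_Sp [Fintype F] {q : ℕ} (hq : Fintype.card F = q) (h2 : (2 : F) ≠ 0) (hI : ∃ I : K, I * I = -1) {m : ℕ}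
    (hm : 1 ≤ m) : Deg4 q (rhoSp f m) where
  inj := rhoSp_injective f m
  tr g _ := by
    have h1 : (rhoSp f m g).trace = f (g : Matrix (Fin m ⊕ Fin m) (Fin m ⊕ Fin m) F).trace := by
      rw [rhoSp_apply]
      simp [Matrix.trace]
    rw [h1, ← map_pow, ← hq, FiniteField.pow_card]
  tor := by
    have h2K : (2 : K) ≠ 0 := by
      intro h
      apply h2
      apply f.injective
      rw [map_ofNat, map_zero]; exact h
    refine tor_of (rhoSp f m) (rhoSp_injective f m) (pairs_spIdx m) hI h2K fun i => ?_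
    refine ⟨⟨bm _ (wq F), bm_mem_sp i _ det_wq⟩, ?_⟩
    rw [rhoSp_apply]
    show (bm _ (wq F)).map f = _
    rw [map_bm, map_wq]
  prm t ht _ htq := by
    rw [← hq] at htq
    obtain ⟨B, hdet, hB, hB1⟩ := exists_sl_two (F := F) ht htq
    have i0 : Fin m := ⟨0, by omega⟩
    have he := (pairs_spIdx m).injective i0
    refine ⟨⟨bm _ B, bm_mem_sp i0 _ hdet⟩, ?_⟩
    refine prm_of (rhoSp f m) (rhoSp_injective f m) he ht (B := B.map f) ?_ ?_ ?_
    · have := congrArg (f.mapMatrix) hB
      rwa [map_pow, map_one] at this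
    · intro h
      apply hB1
      apply map_injective f
      show B.map f = (1 : Matrix (Fin 2) (Fin 2) F).map f
      rw [h, Matrix.map_one _ (map_zero f) (map_one f)]
    · rw [rhoSp_apply]
      show (bm _ B).map f = _
      rw [map_bm]

end Sp

end Cfsg.Agent.H558.Deg4Data
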