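import Cfsg.Agent.H558.Deg4Data.Bar

/-!
# Noncommuting elements with central commutator of prime order `r` move at least `r - 1` dimensions
-/

namespace Cfsg.Agent.H558.Deg4Data

open Module

theorem rank_ge {k V : Type*} [Field k] [IsAlgClosed k] [AddCommGroup V] [Module k V] [FiniteDimensional k V]
    {r : ℕ} (hr : r.Prime) (hrk : (r : k) ≠ 0) (A B C : Module.End k V) (hC : C ^ r = 1) (hC1 : C ≠ 1)
    (hAB : A * B = C * (B * A)) (hCA : C * A = A * C) (hCB : C * B = B * C) (hA : A ^ r = 1) (hB : B ^ r = 1) :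
    r ≤ finrank k (LinearMap.range (A - 1)) + 1 := by
  classical
  obtain ⟨b, l, hl⟩ := Cfsg.Agent.H574.Deg4.exists_eigenbasis C hC hrk
  obtain ⟨i, hi⟩ : ∃ i, l i ≠ 1 := by
    by_contra hcon
    push Not at hcon
    apply hC1
    apply b.ext
    intro i
    rw [hl, hcon, one_smul]; rfl
  set ζ := l i with hζ
  have hpowC : ∀ n : ℕ, (C ^ n) (b i) = ζ ^ n • b i := by
    intro n
    induction n with
    | zero => simp
    | succ n ih => rw [pow_succ', Module.End.mul_apply, ih, map_smul, hl, smul_smul, pow_succ]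
  have hζr : ζ ^ r = 1 := by
    have h1 := hpowC r
    rw [hC, Module.End.one_apply] at h1
    have h2 : (ζ ^ r - 1) • b i = 0 := by rw [sub_smul, one_smul, ← h1, sub_self]
    exact sub_eq_zero.1 ((smul_eq_zero.1 h2).resolve_right (b.ne_zero i))
  have hζ0 : ζ ≠ 0 := by
    intro h0
    rw [h0, zero_pow hr.ne_zero] at hζr
    exact zero_ne_one hζr
  have hζo : orderOf ζ = r := orderOf_eq_prime (hp := ⟨hr⟩) hζr hi
  -- an eigenvector of `A` in the eigenspace of `C`
  let M : Submodule k V := Module.End.eigenspace C ζ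
  have hM : ∀ v ∈ M, A v ∈ M := by
    intro v hv
    rw [Module.End.mem_eigenspace_iff] at hv ⊢
    rw [← Module.End.mul_apply, hCA, Module.End.mul_apply, hv, map_smul]
  have hbM : b i ∈ M := Module.End.mem_eigenspace_iff.2 (hl i)
  have hnt : Nontrivial M := ⟨⟨b i, hbM⟩, 0, fun h => b.ne_zero i (congrArg Subtype.val h)⟩
  obtain ⟨μ, hμ⟩ := Module.End.exists_eigenvalue (A.restrict hM)
  obtain ⟨u, hu⟩ := hμ.exists_hasEigenvector
  have hu0 : (u : V) ≠ 0 := fun h => hu.2 (Subtype.ext h)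
  have hAu : A u = μ • (u : V) := congrArg Subtype.val hu.apply_eq_smul
  have hCu : C u = ζ • (u : V) := Module.End.mem_eigenspace_iff.1 u.2
  have hCBn : ∀ n : ℕ, C ((B ^ n) u) = ζ • (B ^ n) (u : V) := by
    intro n
    have h1 : C * B ^ n = B ^ n * C := (Commute.pow_right (show Commute C B from hCB) n)
    rw [← Module.End.mul_apply, h1, Module.End.mul_apply, hCu, map_smul]
  have hAB' : ∀ n : ℕ, A ((B ^ n) u) = (ζ ^ n * μ) • (B ^ n) (u : V) := by
    intro n
    induction n with
    | zero => simp [hAu]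
    | succ n ih =>
      have h1 : (B ^ (n + 1)) (u : V) = B ((B ^ n) u) := by rw [pow_succ', Module.End.mul_apply]
      rw [h1, ← Module.End.mul_apply, hAB, Module.End.mul_apply, Module.End.mul_apply, ih, map_smul, map_smul,
        ← h1, hCBn (n + 1), smul_smul, pow_succ]
      congr 1; ring
  have hμ0 : μ ≠ 0 := by
    intro h0
    have h1 : (A ^ r) (u : V) = 0 := by
      have h2 : A ^ r = A ^ (r - 1) * A := by rw [← pow_succ, Nat.sub_add_cancel hr.one_lt.le]
      rw [h2, Module.End.mul_apply, hAu, h0, zero_smul, map_zero]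
    rw [hA] at h1
    exact hu0 h1
  have hBn0 : ∀ n : ℕ, (B ^ n) (u : V) ≠ 0 := by
    intro n h0
    have h1 : (B ^ (r * n)) (u : V) = 0 := by
      have h2 : B ^ (r * n) = B ^ (r * n - n) * B ^ n := by
        rw [← pow_add, Nat.sub_add_cancel (Nat.le_mul_of_pos_left n hr.pos)]
      rw [h2, Module.End.mul_apply, h0, map_zero]
    rw [pow_mul, hB, one_pow] at h1
    exact hu0 h1
  -- the family of eigenvectors
  let ev : Fin r → k := fun n => ζ ^ (n : ℕ) * μ
  have hevinj : Function.Injective ev := by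
    intro m n hmn
    have h1 : ζ ^ (m : ℕ) = ζ ^ (n : ℕ) := mul_right_cancel₀ hμ0 hmn
    have h2 : ∀ a b : Fin r, (a : ℕ) ≤ b → ζ ^ (a : ℕ) = ζ ^ (b : ℕ) → a = b := by
      intro a b hab h
      have h3 : ζ ^ ((b : ℕ) - a) = 1 := by
        have h4 : ζ ^ ((b : ℕ) - a) * ζ ^ (a : ℕ) = ζ ^ (b : ℕ) := by rw [← pow_add, Nat.sub_add_cancel hab]
        rw [← h] at h4
        exact mul_right_cancel₀ (pow_ne_zero _ hζ0) (by rw [h4, one_mul])
      have h5 := orderOf_dvd_of_pow_eq_one h3
      rw [hζo] at h5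
      have h6 := Nat.eq_zero_of_dvd_of_lt h5 (by have := b.2; omega)
      ext; omega
    rcases le_total (m : ℕ) n with h | h
    · exact h2 m n h h1
    · exact (h2 n m h h1.symm).symm
  have hvec : ∀ n : Fin r, A.HasEigenvector (ev n) ((B ^ (n : ℕ)) (u : V)) := fun n =>
    ⟨Module.End.mem_eigenspace_iff.2 (hAB' n), hBn0 n⟩
  have hli := Module.End.eigenvectors_linearIndependent' A ev hevinj _ hvec
  let s := {n : Fin r // ev n ≠ 1}
  have hli' : LinearIndependent k (fun n : s => (B ^ ((n : Fin r) : ℕ)) (u : V)) :=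
    hli.comp (Subtype.val : s → Fin r) Subtype.val_injective
  have hspan : Submodule.span k (Set.range (fun n : s => (B ^ ((n : Fin r) : ℕ)) (u : V))) ≤ LinearMap.range (A - 1) := by
    rw [Submodule.span_le]
    rintro _ ⟨n, rfl⟩
    refine ⟨(ev n - 1)⁻¹ • (B ^ ((n : Fin r) : ℕ)) (u : V), ?_⟩
    have h1 : A ((B ^ ((n : Fin r) : ℕ)) (u : V)) = ev n • (B ^ ((n : Fin r) : ℕ)) (u : V) := hAB' _
    rw [map_smul, LinearMap.sub_apply, Module.End.one_apply, h1]
    have h2 : ev n • (B ^ ((n : Fin r) : ℕ)) (u : V) - (B ^ ((n : Fin r) : ℕ)) (u : V)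
        = (ev n - 1) • (B ^ ((n : Fin r) : ℕ)) (u : V) := by rw [sub_smul, one_smul]
    rw [h2, smul_smul, inv_mul_cancel₀ (sub_ne_zero.2 n.2), one_smul]
  have h1 := Submodule.finrank_mono hspan
  rw [finrank_span_eq_card hli'] at h1
  have h2 : r ≤ Fintype.card s + 1 := by
    have h3 : Fintype.card s = Fintype.card (Fin r) - Fintype.card {n : Fin r // ¬ (ev n ≠ 1)} := by
      rw [Fintype.card_subtype_compl (fun n : Fin r => ev n ≠ 1), Nat.sub_sub_self]
      exact Fintype.card_subtype_le _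
    have h4 : Fintype.card {n : Fin r // ¬ (ev n ≠ 1)} ≤ 1 := by
      rw [Fintype.card_le_one_iff]
      rintro ⟨a, ha⟩ ⟨b, hb⟩
      push Not at ha hb
      exact Subtype.ext (hevinj (ha.trans hb.symm))
    rw [Fintype.card_fin] at h3
    omega
  omega

end Cfsg.Agent.H558.Deg4Data
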