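import Cfsg.Agent.H558.Deg4Data.Heis
import Cfsg.Agent.H167.OP.MinD2

/-!
# `r`-subgroups normalised by an element of order four of a block are centralised
-/

namespace Cfsg.Agent.H558.Deg4Data

open Module Cfsg.Agent.H167.OP

section rk

variable {k V G : Type*} [Field k] [AddCommGroup V] [Module k V] [FiniteDimensional k V] [Group G]
  (ρ : G →* Module.End k V)

theorem rk_mul_le (g h : G) : finrank k (LinearMap.range (ρ (g * h) - 1))
    ≤ finrank k (LinearMap.range (ρ g - 1)) + finrank k (LinearMap.range (ρ h - 1)) := by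
  have h1 : LinearMap.range (ρ (g * h) - 1) ≤ LinearMap.range (ρ g - 1) ⊔ LinearMap.range (ρ h - 1) := by
    rintro _ ⟨v, rfl⟩
    have h2 : (ρ (g * h) - 1) v = (ρ g - 1) (ρ h v) + (ρ h - 1) v := by
      rw [map_mul, LinearMap.sub_apply, LinearMap.sub_apply, LinearMap.sub_apply, Module.End.mul_apply,
        Module.End.one_apply, Module.End.one_apply]
      abel
    rw [h2]
    exact Submodule.add_mem_sup ⟨_, rfl⟩ ⟨_, rfl⟩
  exact (Submodule.finrank_mono h1).trans (Submodule.finrank_add_le_finrank_add_finrank _ _)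

theorem rk_conj_le' (g z : G) : finrank k (LinearMap.range (ρ (g * z * g⁻¹) - 1))
    ≤ finrank k (LinearMap.range (ρ z - 1)) := by
  have h1 : LinearMap.range (ρ (g * z * g⁻¹) - 1) ≤ (LinearMap.range (ρ z - 1)).map (ρ g) := by
    rintro _ ⟨v, rfl⟩
    refine ⟨(ρ z - 1) (ρ g⁻¹ v), ⟨_, rfl⟩, ?_⟩
    have h2 : ρ g (ρ g⁻¹ v) = v := by
      rw [← Module.End.mul_apply, ← map_mul, mul_inv_cancel, map_one, Module.End.one_apply]
    rw [LinearMap.sub_apply, LinearMap.sub_apply, Module.End.one_apply, Module.End.one_apply, map_sub, h2, map_mul,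
      map_mul, Module.End.mul_apply, Module.End.mul_apply]
  exact (Submodule.finrank_mono h1).trans (Submodule.finrank_map_le _ _)

theorem rk_pow_le (g : G) (n : ℕ) : finrank k (LinearMap.range (ρ (g ^ n) - 1))
    ≤ finrank k (LinearMap.range (ρ g - 1)) := by
  apply Submodule.finrank_mono
  induction n with
  | zero => rw [pow_zero, map_one, sub_self, LinearMap.range_zero]; exact bot_le
  | succ n ih =>
    rintro _ ⟨v, rfl⟩
    have h2 : (ρ (g ^ (n + 1)) - 1) v = (ρ g - 1) (ρ (g ^ n) v) + (ρ (g ^ n) - 1) v := by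
      rw [pow_succ', map_mul, LinearMap.sub_apply, LinearMap.sub_apply, LinearMap.sub_apply, Module.End.mul_apply,
        Module.End.one_apply, Module.End.one_apply]
      abel
    rw [h2]
    exact Submodule.add_mem _ ⟨_, rfl⟩ (ih ⟨_, rfl⟩)

end rk

section grp

variable {G : Type*} [Group G]

theorem nrm_closure {x : G} {s : Set G} (h : ∀ a ∈ s, x * a * x⁻¹ ∈ Subgroup.closure s) :
    Nrm x (Subgroup.closure s) := by
  intro a ha
  have h1 : MulAut.conj x a ∈ (Subgroup.closure s).map (MulAut.conj x).toMonoidHom := ⟨a, ha, rfl⟩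
  rw [MonoidHom.map_closure] at h1
  refine (Subgroup.closure_le _).2 ?_ h1
  rintro _ ⟨b, hb, rfl⟩
  exact h b hb

theorem comm_closure {s : Set G} (h : ∀ a ∈ s, ∀ b ∈ s, a * b = b * a) :
    ∀ a ∈ Subgroup.closure s, ∀ b ∈ Subgroup.closure s, a * b = b * a := by
  have h1 := Subgroup.isMulCommutative_closure h
  intro a ha b hb
  exact congrArg Subtype.val (h1.is_comm.comm (⟨a, ha⟩ : Subgroup.closure s) ⟨b, hb⟩)

/-- an element with `y² = 1`-action inverts `[y, d]` -/
theorem conj_comm_inv {y d : G} (h : (y * y) * d = d * (y * y)) : y * (y * d * y⁻¹ * d⁻¹) * y⁻¹ = (y * d * y⁻¹ * d⁻¹)⁻¹ := by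
  have h1 : y * (y * d * y⁻¹ * d⁻¹) * y⁻¹ = (y * y * d) * y⁻¹ * d⁻¹ * y⁻¹ := by group
  rw [h1, h]
  group

theorem eq_one_of_sq_rpow {e : G} {r k : ℕ} (hr : r.Prime) (hr2 : r ≠ 2) (h1 : e ^ r ^ k = 1) (h2 : e = e⁻¹) : e = 1 := by
  have h3 : e ^ 2 = 1 := by rw [pow_two]; nth_rewrite 2 [h2]; exact mul_inv_cancel e
  exact eq_one_of_coprime h1 h3 (Nat.Coprime.pow_left _ ((Nat.coprime_primes hr Nat.prime_two).2 hr2))

/-- a power of prime order -/
theorem exists_pow_prime {v : G} {r k : ℕ} (h1 : v ^ r ^ k = 1) (hv : v ≠ 1) : ∃ n, (v ^ n) ^ r = 1 ∧ v ^ n ≠ 1 := by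
  by_contra hcon
  push Not at hcon
  have : ∀ j, v ^ r ^ (k - j) = 1 := by
    intro j
    induction j with
    | zero => simpa using h1
    | succ j ih =>
      by_cases hj : k - j = 0
      · have : k - (j + 1) = 0 := by omega
        rw [this]; rwa [hj] at ih
      · apply hcon
        rw [← pow_mul, ← pow_succ]
        have : k - (j + 1) + 1 = k - j := by omega
        rw [this]; exact ih
  have h2 := this k
  rw [Nat.sub_self, pow_zero, pow_one] at h2
  exact hv h2

end grp

/-- The abstract part: `x` of order dividing four which centralises the abelian `r`-subgroups it normalises, and for which two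
`r`-elements `v = [x², d]^n`, `w` of order `r` with central commutator of order `r` do not exist when `r ≥ 7`. -/
theorem cen_abs {G : Type*} [Group G] [Finite G] {r : ℕ} (hr : r.Prime) (hr5 : 5 ≤ r) {x : G} (h4 : x ^ 4 = 1)
    (hab : ∀ A : Subgroup G, IsPGroup r A → (∀ a ∈ A, ∀ b ∈ A, a * b = b * a) → Nrm x A → Cen x A)
    (hno : 7 ≤ r → ∀ (d v w c : G) (n : ℕ), v = (x * x * d * (x * x)⁻¹ * d⁻¹) ^ n → v ^ r = 1 → w ^ r = 1 → c ^ r = 1 →
      v * w = c * (w * v) → c * v = v * c → c * w = w * c → c = 1)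
    {N : Subgroup G} (hN : IsPGroup r N) (hx : Nrm x N) : Cen x N := by
  by_contra hcon
  have hNk : ∀ d ∈ N, ∃ k : ℕ, d ^ r ^ k = 1 := fun d hd => by
    obtain ⟨k, hk⟩ := hN ⟨d, hd⟩
    exact ⟨k, congrArg Subtype.val hk⟩
  obtain ⟨D, hDN, hD⟩ := exists_minD hr Nat.prime_two (by omega) hNk ⟨2, h4⟩ hx hcon
  have hDr : IsPGroup r D := hN.to_le hDN
  have hnab : ∃ a ∈ D, ∃ b ∈ D, a * b ≠ b * a := by
    by_contra h
    push Not at h
    exact hD.ncen (hab D hDr h hD.nrm)
  set z := x * x with hz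
  have hzz : z * z = 1 := by
    rw [hz, ← h4]; simp only [pow_succ, pow_zero, one_mul, mul_assoc]
  have hzinv : z⁻¹ = z := inv_eq_of_mul_eq_one_right hzz
  have hsub : ∀ s : Set G, s ⊆ D → IsPGroup r (Subgroup.closure s) := fun s hs =>
    hDr.to_le ((Subgroup.closure_le _).2 hs)
  by_cases hzD : Cen z D
  · -- `x` acts as an involution
    obtain ⟨d, hd, hxd⟩ := hD.exists_ncomm
    have he := hD.comm_mem hd
    set e := x * d * x⁻¹ * d⁻¹ with hedef
    have h1 : x * e * x⁻¹ = e⁻¹ := conj_comm_inv (hzD d hd)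
    have h2 : Cen x (Subgroup.zpowers e) := by
      refine hab _ (hDr.to_le (Subgroup.zpowers_le.2 he)) ?_ ?_
      · rintro _ ⟨i, rfl⟩ _ ⟨j, rfl⟩
        exact (zpow_mul_comm e i j)
      · rintro _ ⟨i, rfl⟩
        refine ⟨-i, ?_⟩
        show e ^ (-i) = x * e ^ i * x⁻¹
        rw [← conj_zpow, h1, inv_zpow', ]
    have h3 : x * e = e * x := h2 e (Subgroup.mem_zpowers e)
    have h5 : e = e⁻¹ := by rw [← h1, h3, mul_inv_cancel_right]
    obtain ⟨k, hk⟩ := hNk e (hDN he)
    have h6 := eq_one_of_sq_rpow hr (by omega) hk h5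
    apply hxd
    have h7 : x * d = e * (d * x) := by rw [hedef]; group
    rw [h7, h6, one_mul]
  · unfold Cen at hzD
    push Not at hzD
    obtain ⟨d, hd, hzd⟩ := hzD
    have hznrm : ∀ a ∈ D, z * a * z⁻¹ ∈ D := by
      intro a ha
      have := hD.nrm _ (hD.nrm a ha)
      have h1 : x * (x * a * x⁻¹) * x⁻¹ = z * a * z⁻¹ := by rw [hz]; group
      rwa [h1] at this
    set v0 := z * d * z⁻¹ * d⁻¹ with hv0
    have hv0D : v0 ∈ D := D.mul_mem (hznrm d hd) (D.inv_mem hd)
    have hv0z : z * v0 * z⁻¹ = v0⁻¹ := conj_comm_inv (by rw [hzz, one_mul, mul_one])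
    have hv01 : v0 ≠ 1 := by
      intro h1
      apply hzd
      have h7 : z * d = v0 * (d * z) := by rw [hv0]; group
      rw [h7, h1, one_mul]
    obtain ⟨k, hk⟩ := hNk v0 (hDN hv0D)
    obtain ⟨n, hn, hn1⟩ := exists_pow_prime hk hv01
    set v := v0 ^ n with hv
    have hvD : v ∈ D := D.pow_mem hv0D n
    have hvz : z * v * z⁻¹ = v⁻¹ := by rw [hv, ← conj_pow, hv0z, inv_pow]
    have hvne : v ≠ v⁻¹ := fun h => hn1 (eq_one_of_sq_rpow (k := 1) hr (by omega) (by rw [pow_one]; exact hn) h)
    set w := x * v * x⁻¹ with hw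
    have hwD : w ∈ D := hD.nrm v hvD
    have hwr : w ^ r = 1 := by rw [hw, conj_pow, hn, mul_one, mul_inv_cancel]
    have hxw : x * w * x⁻¹ = v⁻¹ := by rw [← hvz, hw, hz]; group
    have hwv : w ≠ v := by
      intro h
      apply hvne
      rw [← hxw, h, ← hw, h]
    set c := v * w * v⁻¹ * w⁻¹ with hc
    have hcD : c ∈ D := D.mul_mem (D.mul_mem (D.mul_mem hvD hwD) (D.inv_mem hvD)) (D.inv_mem hwD)
    have hcc : ∀ a ∈ D, c * a = a * c := fun a ha => hD.class_two hvD hwD ha
    have hvw : v * w = c * (w * v) := by rw [hc]; group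
    have hxc : x * c = c * x := hD.cen_center hnab hcD hcc
    have hc1 : c ≠ 1 := by
      intro h1
      rw [h1, one_mul] at hvw
      have hcom : ∀ a ∈ ({v, w} : Set G), ∀ b ∈ ({v, w} : Set G), a * b = b * a := by
        rintro a (rfl | rfl) b (rfl | rfl)
        · rfl
        · exact hvw
        · exact hvw.symm
        · rfl
      have hvm : v ∈ Subgroup.closure ({v, w} : Set G) := Subgroup.subset_closure (by simp)
      have hwm : w ∈ Subgroup.closure ({v, w} : Set G) := Subgroup.subset_closure (by simp)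
      have h2 : Cen x (Subgroup.closure ({v, w} : Set G)) := by
        refine hab _ (hsub _ ?_) (comm_closure hcom) (nrm_closure ?_)
        · rintro a (rfl | rfl)
          · exact hvD
          · exact hwD
        · rintro a (rfl | rfl)
          · exact hwm
          · rw [hxw]; exact Subgroup.inv_mem _ hvm
      apply hwv
      rw [hw, h2 v hvm, mul_inv_cancel_right]
    rcases Nat.lt_or_ge r 7 with h7 | h7
    · have hr5' : r = 5 := by
        have : r ≠ 6 := by rintro rfl; exact absurd hr (by norm_num)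
        omega
      subst hr5'
      set u := v ^ 2 * w with hu
      have huD : u ∈ D := D.mul_mem (D.pow_mem hvD 2) hwD
      -- commutation rules
      have cv : Commute c v := hcc v hvD
      have cw : Commute c w := hcc w hwD
      have cu : Commute c u := hcc u huD
      have hwv1 : w * v = c⁻¹ * (v * w) := by rw [hvw]; group
      have key : x * u * x⁻¹ = c ^ 4 * u ^ 2 := by
        have e1 : x * u * x⁻¹ = w ^ 2 * v⁻¹ := by
          rw [hu]
          have : x * (v ^ 2 * w) * x⁻¹ = (x * v * x⁻¹) ^ 2 * (x * w * x⁻¹) := by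
            rw [conj_pow]; group
          rw [this, ← hw, hxw]
        have e2 : w * v⁻¹ = c * (v⁻¹ * w) := by
          have : w = c⁻¹ * (v * w * v⁻¹) := by rw [hc]; group
          have h9 : v⁻¹ * w = c⁻¹ * (w * v⁻¹) := by
            nth_rewrite 1 [this]
            have : v⁻¹ * (c⁻¹ * (v * w * v⁻¹)) = (v⁻¹ * c⁻¹) * (v * w * v⁻¹) := by group
            rw [this, (cv.inv_inv.eq).symm]
            group
          rw [h9, mul_inv_cancel_left]
        have e3 : w ^ 2 * v⁻¹ = c ^ 2 * (v⁻¹ * w ^ 2) := by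
          calc w ^ 2 * v⁻¹ = w * (w * v⁻¹) := by simp only [pow_succ, pow_zero, one_mul, mul_assoc]
            _ = w * (c * (v⁻¹ * w)) := by rw [e2]
            _ = (w * c) * (v⁻¹ * w) := by simp only [pow_succ, pow_zero, one_mul, mul_assoc]
            _ = (c * w) * (v⁻¹ * w) := by rw [cw.eq]
            _ = c * (w * v⁻¹) * w := by simp only [pow_succ, pow_zero, one_mul, mul_assoc]
            _ = c * (c * (v⁻¹ * w)) * w := by rw [e2]
            _ = c ^ 2 * (v⁻¹ * w ^ 2) := by simp only [pow_succ, pow_zero, one_mul, mul_assoc]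
        have e4 : w * v ^ 2 = c⁻¹ ^ 2 * (v ^ 2 * w) := by
          have c' : Commute c⁻¹ v := cv.inv_left
          calc w * v ^ 2 = (w * v) * v := by simp only [pow_succ, pow_zero, one_mul, mul_assoc]
            _ = c⁻¹ * (v * w) * v := by rw [hwv1]
            _ = c⁻¹ * v * (w * v) := by simp only [pow_succ, pow_zero, one_mul, mul_assoc]
            _ = c⁻¹ * v * (c⁻¹ * (v * w)) := by rw [hwv1]
            _ = c⁻¹ * (v * c⁻¹) * (v * w) := by simp only [pow_succ, pow_zero, one_mul, mul_assoc]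
            _ = c⁻¹ * (c⁻¹ * v) * (v * w) := by rw [c'.eq]
            _ = c⁻¹ ^ 2 * (v ^ 2 * w) := by simp only [pow_succ, pow_zero, one_mul, mul_assoc]
        have e5 : u ^ 2 = c⁻¹ ^ 2 * (v⁻¹ * w ^ 2) := by
          have c2 : Commute (c⁻¹ ^ 2) (v ^ 2) := (cv.inv_left.pow_pow 2 2)
          have hv4 : v ^ 4 = v⁻¹ := by
            rw [eq_inv_iff_mul_eq_one, ← pow_succ]; exact hn
          calc u ^ 2 = v ^ 2 * (w * v ^ 2) * w := by rw [hu]; simp only [pow_succ, pow_zero, one_mul, mul_assoc]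
            _ = v ^ 2 * (c⁻¹ ^ 2 * (v ^ 2 * w)) * w := by rw [e4]
            _ = (v ^ 2 * c⁻¹ ^ 2) * (v ^ 2 * w) * w := by simp only [pow_succ, pow_zero, one_mul, mul_assoc]
            _ = (c⁻¹ ^ 2 * v ^ 2) * (v ^ 2 * w) * w := by rw [c2.eq]
            _ = c⁻¹ ^ 2 * (v ^ 4 * w ^ 2) := by simp only [pow_succ, pow_zero, one_mul, mul_assoc]
            _ = c⁻¹ ^ 2 * (v⁻¹ * w ^ 2) := by rw [hv4]
        rw [e1, e3, e5]
        group
      have hcom : ∀ a ∈ ({u, c} : Set G), ∀ b ∈ ({u, c} : Set G), a * b = b * a := by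
        rintro a (rfl | rfl) b (rfl | rfl)
        · rfl
        · exact cu.eq.symm
        · exact cu.eq
        · rfl
      have hum : u ∈ Subgroup.closure ({u, c} : Set G) := Subgroup.subset_closure (by simp)
      have hcm : c ∈ Subgroup.closure ({u, c} : Set G) := Subgroup.subset_closure (by simp)
      have h2 : Cen x (Subgroup.closure ({u, c} : Set G)) := by
        refine hab _ (hsub _ ?_) (comm_closure hcom) (nrm_closure ?_)
        · rintro a (rfl | rfl)
          · exact huD
          · exact hcD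
        · rintro a (rfl | rfl)
          · rw [key]
            exact Subgroup.mul_mem _ (Subgroup.pow_mem _ hcm 4) (Subgroup.pow_mem _ hum 2)
          · rw [hxc, mul_inv_cancel_right]; exact hcm
      have h3 : x * u * x⁻¹ = u := by rw [h2 u hum, mul_inv_cancel_right]
      rw [key] at h3
      have h5 : u = (c ^ 4)⁻¹ := by
        have h6 : c ^ 4 * u * u = u := by rw [mul_assoc, ← pow_two]; exact h3
        have h8 : c ^ 4 * u = 1 := by
          have := congrArg (· * u⁻¹) h6
          simpa using this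
        exact eq_inv_of_mul_eq_one_right h8
      have h6 : Commute u v := by
        rw [h5]; exact (cv.pow_left 4).inv_left
      have h8 : Commute w v := by
        have : w = (v ^ 2)⁻¹ * u := by rw [hu]; group
        rw [this]
        exact ((Commute.refl v).pow_left 2).inv_left.mul_left h6
      apply hc1
      rw [hc, ← h8.eq]; group
    · have hcr : c ^ r = 1 := by
        have h1 : v * w * v⁻¹ = c * w := by rw [hc]; group
        have h2 : (c * w) ^ r = 1 := by rw [← h1, conj_pow, hwr, mul_one, mul_inv_cancel]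
        rw [(show Commute c w from hcc w hwD).mul_pow, hwr, mul_one] at h2
        exact h2
      exact hc1 (hno h7 d v w c n (by rw [hv, hv0]) hn hwr hcr hvw (hcc v hvD) (hcc w hwD))

end Cfsg.Agent.H558.Deg4Data
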