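import Cfsg.Agent.H558.Deg4Data.Groups
import Cfsg.Agent.LieClassical.SympCenter
import Cfsg.Agent.LieClassical.SUBasic

/-!
# The data for the simple groups `PSL_n(q)`, `PSU_n(q)`, `PSp_2m(q)`, `q` odd
-/

namespace Cfsg.Agent.H558.Deg4Data

open Matrix

/-- `S` is the image, with scalar kernel, of a linear group with the data `Deg4` over a field of characteristic `p` with `q²` elements. -/
def HasDeg4 (S : Type*) [Group S] (p : ℕ) : Prop :=
  ∃ (K : Type) (_ : Field K) (_ : Finite K) (q : ℕ) (ι : Type) (_ : Fintype ι) (_ : DecidableEq ι) (G : Type) (_ : Group G)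
    (_ : Finite G) (ρ : G →* Matrix ι ι K) (f : G →* S),
    CharP K p ∧ Odd q ∧ Nat.card K = q ^ 2 ∧ Deg4 q ρ ∧ Function.Surjective f ∧ ∀ z ∈ f.ker, ∃ c : K, ρ z = c • 1

theorem exists_sq_neg_one {K : Type*} [Field K] [Finite K] {q : ℕ} (hq : Odd q) (hK : Nat.card K = q ^ 2) :
    ∃ I : K, I * I = -1 := by
  have := Fintype.ofFinite K
  have h : IsSquare (-1 : K) := by
    rw [FiniteField.isSquare_neg_one_iff, ← Nat.card_eq_fintype_card, hK]
    obtain ⟨k, rfl⟩ := hq
    have : (2 * k + 1) ^ 2 = 4 * (k ^ 2 + k) + 1 := by ring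
    omega
  obtain ⟨I, hI⟩ := h
  exact ⟨I, hI.symm⟩

theorem two_ne_zero_of {K : Type*} [Field K] {p : ℕ} [CharP K p] (hp : p.Prime) (hp2 : p ≠ 2) : (2 : K) ≠ 0 := by
  intro h
  have h1 : ((2 : ℕ) : K) = 0 := by exact_mod_cast h
  rw [CharP.cast_eq_zero_iff K p] at h1
  exact hp2 ((Nat.prime_dvd_prime_iff_eq hp Nat.prime_two).1 h1)

theorem odd_card_of {K : Type*} [Field K] [Fintype K] {p : ℕ} [CharP K p] (hp : p.Prime) (hp2 : p ≠ 2) :
    Odd (Fintype.card K) := by
  obtain ⟨n, -, hn⟩ := FiniteField.card K p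
  rw [hn]
  exact (hp.odd_of_ne_two hp2).pow

theorem hasDeg4_PSL {S : Type*} [Group S] {F : Type} [Field F] [Fintype F] {p : ℕ} [CharP F p] (hp : p.Prime)
    (hp2 : p ≠ 2) {n : ℕ} (hn : 2 ≤ n) (e : S ≃* Matrix.ProjectiveSpecialLinearGroup (Fin n) F) : HasDeg4 S p := by
  have := Fact.mk hp
  have hKc : Nat.card (FiniteField.Extension F p 2) = Fintype.card F ^ 2 := by
    rw [FiniteField.natCard_extension, Nat.card_eq_fintype_card]
  have hq := odd_card_of (K := F) hp hp2
  refine ⟨FiniteField.Extension F p 2, inferInstance, inferInstance, Fintype.card F, Fin n, inferInstance, inferInstance,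
    Matrix.SpecialLinearGroup (Fin n) F, inferInstance, inferInstance,
    rhoSL (algebraMap F (FiniteField.Extension F p 2)) n,
    e.symm.toMonoidHom.comp (QuotientGroup.mk' _), ?_, hq, hKc, ?_, ?_, ?_⟩
  · exact charP_of_injective_algebraMap (algebraMap F _).injective p
  · exact deg4_SL _ rfl (two_ne_zero_of hp hp2) (exists_sq_neg_one hq hKc) hn
  · exact e.symm.surjective.comp (QuotientGroup.mk'_surjective _)
  · intro z hz
    have h1 : z ∈ Subgroup.center (Matrix.SpecialLinearGroup (Fin n) F) := by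
      rw [MonoidHom.mem_ker] at hz
      have h2 : (QuotientGroup.mk' (Subgroup.center (Matrix.SpecialLinearGroup (Fin n) F))) z = 1 := by
        have h3 := congrArg e hz
        rw [map_one] at h3
        rw [← h3]
        exact (e.apply_symm_apply _).symm
      exact (QuotientGroup.eq_one_iff z).1 h2
    obtain ⟨r, -, hr⟩ := Matrix.SpecialLinearGroup.mem_center_iff.1 h1
    refine ⟨algebraMap F _ r, ?_⟩
    rw [rhoSL_apply, ← hr]
    ext i j
    by_cases hij : i = j
    · subst hij; simp
    · simp [hij]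

theorem hasDeg4_PSp {S : Type*} [Group S] {F : Type} [Field F] [Fintype F] {p : ℕ} [CharP F p] (hp : p.Prime)
    (hp2 : p ≠ 2) {m : ℕ} (hm : 1 ≤ m) (e : S ≃* PSp m F) : HasDeg4 S p := by
  have := Fact.mk hp
  have hKc : Nat.card (FiniteField.Extension F p 2) = Fintype.card F ^ 2 := by
    rw [FiniteField.natCard_extension, Nat.card_eq_fintype_card]
  have hq := odd_card_of (K := F) hp hp2
  refine ⟨FiniteField.Extension F p 2, inferInstance, inferInstance, Fintype.card F, Fin m ⊕ Fin m, inferInstance,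
    inferInstance, Matrix.symplecticGroup (Fin m) F, inferInstance, inferInstance,
    rhoSp (algebraMap F (FiniteField.Extension F p 2)) m,
    e.symm.toMonoidHom.comp (QuotientGroup.mk' _), ?_, hq, hKc, ?_, ?_, ?_⟩
  · exact charP_of_injective_algebraMap (algebraMap F _).injective p
  · exact deg4_Sp _ rfl (two_ne_zero_of hp hp2) (exists_sq_neg_one hq hKc) hm
  · exact e.symm.surjective.comp (QuotientGroup.mk'_surjective _)
  · intro z hz
    have h1 : z ∈ Subgroup.center (Matrix.symplecticGroup (Fin m) F) := by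
      rw [MonoidHom.mem_ker] at hz
      have h2 : (QuotientGroup.mk' (Subgroup.center (Matrix.symplecticGroup (Fin m) F))) z = 1 := by
        have h3 := congrArg e hz
        rw [map_one] at h3
        rw [← h3]
        exact (e.apply_symm_apply _).symm
      exact (QuotientGroup.eq_one_iff z).1 h2
    obtain ⟨r, hr⟩ := (LieClassical.SympCenter.mem_center_iff m z).1 h1
    refine ⟨algebraMap F _ r, ?_⟩
    rw [rhoSp_apply, hr]
    ext i j
    by_cases hij : i = j
    · subst hij; simp
    · simp [hij]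

theorem hasDeg4_PSU {S : Type*} [Group S] {F : Type} [Field F] [Fintype F] {p : ℕ} [CharP F p] (hp : p.Prime)
    (hp2 : p ≠ 2) {n q : ℕ} (hF : Fintype.card F = q ^ 2) (hn : 3 ≤ n) (e : S ≃* PSU n F q) : HasDeg4 S p := by
  have := Fact.mk hp
  have hKc : Nat.card F = q ^ 2 := by rw [Nat.card_eq_fintype_card, hF]
  have hq : Odd q := by
    have := odd_card_of (K := F) hp hp2
    rw [hF, pow_two, Nat.odd_mul] at this
    exact this.1
  refine ⟨F, inferInstance, inferInstance, q, Fin n, inferInstance, inferInstance,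
    SU n F q, inferInstance, inferInstance, rhoSU (RingHom.id F) n q,
    e.symm.toMonoidHom.comp (QuotientGroup.mk' _), inferInstance, hq, hKc, ?_, ?_, ?_⟩
  · exact deg4_SU _ hF (two_ne_zero_of hp hp2) (exists_sq_neg_one hq hKc) (by omega)
  · exact e.symm.surjective.comp (QuotientGroup.mk'_surjective _)
  · intro z hz
    have h1 : z ∈ Subgroup.center (SU n F q) := by
      rw [MonoidHom.mem_ker] at hz
      have h2 : (QuotientGroup.mk' (Subgroup.center (SU n F q))) z = 1 := by
        have h3 := congrArg e hz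
        rw [map_one] at h3
        rw [← h3]
        exact (e.apply_symm_apply _).symm
      exact (QuotientGroup.eq_one_iff z).1 h2
    obtain ⟨c, hcn, hcq, rfl⟩ := (LieClassical.SUBasic.mem_center_SU_iff hF hn z).1 h1
    refine ⟨c, ?_⟩
    rw [rhoSU_apply, LieClassical.SUBasic.coe_suScalar]
    ext i j
    by_cases hij : i = j
    · subst hij; simp
    · simp [hij]

end Cfsg.Agent.H558.Deg4Data
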