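import Cfsg.Agent.H558.Deg4Data.Quot
import Cfsg.Agent.H558.Deg4Data.Quat

/-!
# The data, with quaternion pairs, for the simple groups `PSL_n(q)`, `PSU_n(q)`, `PSp_2m(q)`, `q` odd
-/

namespace Cfsg.Agent.H558.Deg4Data

open Matrix

/-- `S` is the image, with scalar kernel, of a linear group with the data `Deg4` over a field of characteristic `p` with `q²` elements. -/
def HasDegQ (S : Type*) [Group S] (p : ℕ) : Prop :=
  ∃ (K : Type) (_ : Field K) (_ : Finite K) (q : ℕ) (ι : Type) (_ : Fintype ι) (_ : DecidableEq ι) (G : Type) (_ : Group G)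
    (_ : Finite G) (ρ : G →* Matrix ι ι K) (f : G →* S),
    CharP K p ∧ Odd q ∧ Nat.card K = q ^ 2 ∧ Deg4 q ρ ∧ DegQ ρ ∧ (∀ g, (ρ g).det = 1) ∧ Function.Surjective f ∧
    ∀ z ∈ f.ker, ∃ c : K, ρ z = c • 1

theorem det_map_one {F K : Type*} [Field F] [Field K] (f : F →+* K) {ι : Type*} [Fintype ι] [DecidableEq ι]
    {M : Matrix ι ι F} (h : M.det = 1) : (M.map f).det = 1 := by
  have := RingHom.map_det f M
  rw [h, map_one] at this
  exact this.symm

theorem hasDegQ_PSL {S : Type*} [Group S] {F : Type} [Field F] [Fintype F] {p : ℕ} [CharP F p] (hp : p.Prime)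
    (hp2 : p ≠ 2) {n : ℕ} (hn : 2 ≤ n) (e : S ≃* Matrix.ProjectiveSpecialLinearGroup (Fin n) F) : HasDegQ S p := by
  have := Fact.mk hp
  have hKc : Nat.card (FiniteField.Extension F p 2) = Fintype.card F ^ 2 := by
    rw [FiniteField.natCard_extension, Nat.card_eq_fintype_card]
  have hq := odd_card_of (K := F) hp hp2
  refine ⟨FiniteField.Extension F p 2, inferInstance, inferInstance, Fintype.card F, Fin n, inferInstance, inferInstance,
    Matrix.SpecialLinearGroup (Fin n) F, inferInstance, inferInstance,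
    rhoSL (algebraMap F (FiniteField.Extension F p 2)) n,
    e.symm.toMonoidHom.comp (QuotientGroup.mk' _), ?_, hq, hKc, ?_, ?_, ?_, ?_, ?_⟩
  · exact charP_of_injective_algebraMap (algebraMap F _).injective p
  · exact deg4_SL _ rfl (two_ne_zero_of hp hp2) (exists_sq_neg_one hq hKc) hn
  · exact degQ_SL _ (two_ne_zero_of hp hp2) (exists_sq_neg_one hq hKc) n
  · exact fun g => det_map_one _ g.2
  · exact e.symm.surjective.comp (QuotientGroup.mk'_surjective _)
  · intro z hz
    have h1 : z ∈ Subgroup.center (Matrix.SpecialLinearGroup (Fin n) F) := by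
      rw [MonoidHom.mem_ker] at hz
      have h2 : (QuotientGroup.mk' (Subgroup.center (Matrix.SpecialLinearGroup (Fin n) F))) z = 1 := by
        have h3 := congrArg e hz
        rw [map_one] at h3
        rw [← h3]
        exact (e.apply_symm_apply _).symm
      exact (QuotientGroup.eq_one_iff z).1 h2
    obtain ⟨r, -, hr⟩ := Matrix.SpecialLinearGroup.mem_center_iff.1 h1
    refine ⟨algebraMap F _ r, ?_⟩
    rw [rhoSL_apply, ← hr]
    ext i j
    by_cases hij : i = j
    · subst hij; simp
    · simp [hij]

theorem hasDegQ_PSp {S : Type*} [Group S] {F : Type} [Field F] [Fintype F] {p : ℕ} [CharP F p] (hp : p.Prime)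
    (hp2 : p ≠ 2) {m : ℕ} (hm : 1 ≤ m) (e : S ≃* PSp m F) : HasDegQ S p := by
  have := Fact.mk hp
  have hKc : Nat.card (FiniteField.Extension F p 2) = Fintype.card F ^ 2 := by
    rw [FiniteField.natCard_extension, Nat.card_eq_fintype_card]
  have hq := odd_card_of (K := F) hp hp2
  refine ⟨FiniteField.Extension F p 2, inferInstance, inferInstance, Fintype.card F, Fin m ⊕ Fin m, inferInstance,
    inferInstance, Matrix.symplecticGroup (Fin m) F, inferInstance, inferInstance,
    rhoSp (algebraMap F (FiniteField.Extension F p 2)) m,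
    e.symm.toMonoidHom.comp (QuotientGroup.mk' _), ?_, hq, hKc, ?_, ?_, ?_, ?_, ?_⟩
  · exact charP_of_injective_algebraMap (algebraMap F _).injective p
  · exact deg4_Sp _ rfl (two_ne_zero_of hp hp2) (exists_sq_neg_one hq hKc) hm
  · exact degQ_Sp _ (two_ne_zero_of hp hp2) (exists_sq_neg_one hq hKc) m
  · exact fun g => det_map_one _ (SymplecticGroup.det_eq_one g.2)
  · exact e.symm.surjective.comp (QuotientGroup.mk'_surjective _)
  · intro z hz
    have h1 : z ∈ Subgroup.center (Matrix.symplecticGroup (Fin m) F) := by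
      rw [MonoidHom.mem_ker] at hz
      have h2 : (QuotientGroup.mk' (Subgroup.center (Matrix.symplecticGroup (Fin m) F))) z = 1 := by
        have h3 := congrArg e hz
        rw [map_one] at h3
        rw [← h3]
        exact (e.apply_symm_apply _).symm
      exact (QuotientGroup.eq_one_iff z).1 h2
    obtain ⟨r, hr⟩ := (LieClassical.SympCenter.mem_center_iff m z).1 h1
    refine ⟨algebraMap F _ r, ?_⟩
    rw [rhoSp_apply, hr]
    ext i j
    by_cases hij : i = j
    · subst hij; simp
    · simp [hij]

theorem hasDegQ_PSU {S : Type*} [Group S] {F : Type} [Field F] [Fintype F] {p : ℕ} [CharP F p] (hp : p.Prime)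
    (hp2 : p ≠ 2) {n q : ℕ} (hF : Fintype.card F = q ^ 2) (hn : 3 ≤ n) (e : S ≃* PSU n F q) : HasDegQ S p := by
  have := Fact.mk hp
  have hKc : Nat.card F = q ^ 2 := by rw [Nat.card_eq_fintype_card, hF]
  have hq : Odd q := by
    have := odd_card_of (K := F) hp hp2
    rw [hF, pow_two, Nat.odd_mul] at this
    exact this.1
  refine ⟨F, inferInstance, inferInstance, q, Fin n, inferInstance, inferInstance,
    SU n F q, inferInstance, inferInstance, rhoSU (RingHom.id F) n q,
    e.symm.toMonoidHom.comp (QuotientGroup.mk' _), inferInstance, hq, hKc, ?_, ?_, ?_, ?_, ?_⟩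
  · exact deg4_SU _ hF (two_ne_zero_of hp hp2) (exists_sq_neg_one hq hKc) (by omega)
  · exact degQ_SU _ hF (two_ne_zero_of hp hp2) (exists_sq_neg_one hq hKc)
  · exact fun g => by
      rw [rhoSU_apply]
      exact det_map_one (RingHom.id F) (g : Matrix.SpecialLinearGroup (Fin n) F).2
  · exact e.symm.surjective.comp (QuotientGroup.mk'_surjective _)
  · intro z hz
    have h1 : z ∈ Subgroup.center (SU n F q) := by
      rw [MonoidHom.mem_ker] at hz
      have h2 : (QuotientGroup.mk' (Subgroup.center (SU n F q))) z = 1 := by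
        have h3 := congrArg e hz
        rw [map_one] at h3
        rw [← h3]
        exact (e.apply_symm_apply _).symm
      exact (QuotientGroup.eq_one_iff z).1 h2
    obtain ⟨c, hcn, hcq, rfl⟩ := (LieClassical.SUBasic.mem_center_SU_iff hF hn z).1 h1
    refine ⟨c, ?_⟩
    rw [rhoSU_apply, LieClassical.SUBasic.coe_suScalar]
    ext i j
    by_cases hij : i = j
    · subst hij; simp
    · simp [hij]

end Cfsg.Agent.H558.Deg4Data
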